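import Mathlib
import Cfsg.Agent.Lib.Leech.MonsterPlus
import Cfsg.Agent.Lib.Leech.Global
import Cfsg.Agent.Lib.ThreeT.Components

/-!
The extraspecial group of a centralizer of Monster type: singular classes and the two orbits of
non-central involutions.
-/

set_option autoImplicit false

namespace Cfsg.Lib.Leech

open Cfsg Cfsg.Lib.Golay

variable {G : Type*} [Group G] [Finite G] {z : G} {Q : Subgroup (Subgroup.centralizer ({z} : Set G))} [Q.Normal]
  {e : (Subgroup.centralizer ({z} : Set G)) ⧸ Q ≃* Spor.Co1} {ψ : leechLattice → Q ⧸ Subgroup.center Q}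

theorem monster_quad (hX : IsExtraspecial 2 Q) (hiso : IsLeechModTwoIso Q e ψ) :
    ∃ (qf : leechLattice → ZMod 2) (bf : leechLattice → leechLattice → ZMod 2), InvQuad qf bf ∧
      ∀ (v : leechLattice) (x : Q), (QuotientGroup.mk x : Q ⧸ Subgroup.center Q) = ψ v → (qf v = 0 ↔ x * x = 1) := by
  classical
  obtain ⟨-, hZ2⟩ := hX
  obtain ⟨hadd, hsurj, hker, heq⟩ := hiso
  haveI : Finite Q := inferInstance
  -- basic facts about the centre
  obtain ⟨z0, hz0⟩ : ∃ z0 : (Subgroup.center Q), z0 ≠ 1 := by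
    haveI : Nontrivial (Subgroup.center Q) := Finite.one_lt_card_iff_nontrivial.1 (by omega)
    exact exists_ne 1
  have htwo : ∀ a : Q, a ∈ (Subgroup.center Q) → a = 1 ∨ a = (z0 : Q) := by
    intro a ha
    by_contra hc
    push Not at hc
    haveI := Fintype.ofFinite (Subgroup.center Q)
    have : ({1, z0, ⟨a, ha⟩} : Finset (Subgroup.center Q)).card = 3 := by
      rw [Finset.card_insert_of_notMem, Finset.card_pair]
      · intro h; exact hc.2 (congrArg Subtype.val h).symm
      · simp only [Finset.mem_insert, Finset.mem_singleton, not_or]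
        exact ⟨Ne.symm hz0, fun h => hc.1 (congrArg Subtype.val h).symm⟩
    have h2 := Finset.card_le_univ ({1, z0, ⟨a, ha⟩} : Finset (Subgroup.center Q))
    rw [Nat.card_eq_fintype_card] at hZ2
    omega
  have hz0sq : (z0 : Q) * z0 = 1 := by
    have h := pow_card_eq_one' (x := z0)
    rw [hZ2, pow_two] at h
    exact congrArg Subtype.val h
  have hz0ne : (z0 : Q) ≠ 1 := fun h => hz0 (Subtype.ext h)
  have hind : ∀ a b : Q, a ∈ (Subgroup.center Q) → b ∈ (Subgroup.center Q) → nontrivInd (a * b) = nontrivInd a + nontrivInd b := by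
    intro a b ha hb
    rcases htwo a ha with rfl | rfl <;> rcases htwo b hb with rfl | rfl <;>
      simp [nontrivInd, hz0ne, hz0sq] <;> decide
  -- the quotient
  have hψ0 : ψ 0 = 1 := (hker 0).2 ⟨0, by simp⟩
  have hcommq : ∀ a b : Q ⧸ (Subgroup.center Q), a * b = b * a := by
    intro a b
    obtain ⟨v, rfl⟩ := hsurj a
    obtain ⟨w, rfl⟩ := hsurj b
    rw [← hadd, ← hadd, add_comm]
  have hsqq : ∀ a : Q ⧸ (Subgroup.center Q), a * a = 1 := by
    intro a
    obtain ⟨v, rfl⟩ := hsurj a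
    rw [← hadd]; exact (hker _).2 ⟨v, rfl⟩
  have hsqZ : ∀ x : Q, x * x ∈ (Subgroup.center Q) := by
    intro x
    rw [← QuotientGroup.eq_one_iff, QuotientGroup.mk_mul, hsqq]
  have hcomZ : ∀ x y : Q, x⁻¹ * y * x * y⁻¹ ∈ (Subgroup.center Q) := by
    intro x y
    rw [← QuotientGroup.eq_one_iff, QuotientGroup.mk_mul, QuotientGroup.mk_mul, QuotientGroup.mk_mul,
      QuotientGroup.mk_inv, QuotientGroup.mk_inv, hcommq ((x : Q ⧸ (Subgroup.center Q)))⁻¹ (y : Q ⧸ (Subgroup.center Q))]
    group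
  have hsq_wd : ∀ x y : Q, (QuotientGroup.mk x : Q ⧸ (Subgroup.center Q)) = QuotientGroup.mk y → x * x = y * y := by
    intro x y h
    rw [QuotientGroup.eq] at h
    set k := x⁻¹ * y with hk
    have hy : y = x * k := by rw [hk]; group
    have hkk : k * k = 1 := by
      rcases htwo k h with e | e <;> rw [e]
      · rw [one_mul]
      · exact hz0sq
    rw [hy]
    have hc : k * x = x * k := (Subgroup.mem_center_iff.1 h x).symm
    calc x * x = x * x * (k * k) := by rw [hkk, mul_one]
      _ = x * (x * k) * k := by group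
      _ = x * (k * x) * k := by rw [hc]
      _ = x * k * (x * k) := by group
  set rep : leechLattice → Q := fun v => Quotient.out (ψ v) with hrep
  have hrepspec : ∀ v, (QuotientGroup.mk (rep v) : Q ⧸ (Subgroup.center Q)) = ψ v := fun v => QuotientGroup.out_eq' _
  set qf : leechLattice → ZMod 2 := fun v => nontrivInd (rep v * rep v) with hqf
  set bf : leechLattice → leechLattice → ZMod 2 :=
    fun v w => nontrivInd ((rep v)⁻¹ * rep w * rep v * (rep w)⁻¹) with hbf
  have hqf' : ∀ v x, (QuotientGroup.mk x : Q ⧸ (Subgroup.center Q)) = ψ v → qf v = nontrivInd (x * x) := by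
    intro v x hx
    show nontrivInd (rep v * rep v) = _
    rw [hsq_wd (rep v) x (by rw [hrepspec, hx])]
  have hbf' : ∀ v w y, (QuotientGroup.mk y : Q ⧸ (Subgroup.center Q)) = ψ w →
      bf v w = nontrivInd ((rep v)⁻¹ * y * rep v * y⁻¹) := by
    intro v w y hy
    show nontrivInd ((rep v)⁻¹ * rep w * rep v * (rep w)⁻¹) = _
    have h : (rep w)⁻¹ * y ∈ (Subgroup.center Q) := QuotientGroup.eq.1 (by rw [hrepspec, hy])
    set k := (rep w)⁻¹ * y with hk
    have hy' : y = rep w * k := by rw [hk]; group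
    have hc : k * rep v = rep v * k := (Subgroup.mem_center_iff.1 h (rep v)).symm
    rw [hy']
    congr 1
    calc (rep v)⁻¹ * rep w * rep v * (rep w)⁻¹
        = (rep v)⁻¹ * rep w * (rep v * k) * k⁻¹ * (rep w)⁻¹ := by group
      _ = (rep v)⁻¹ * rep w * (k * rep v) * k⁻¹ * (rep w)⁻¹ := by rw [hc]
      _ = (rep v)⁻¹ * (rep w * k) * rep v * (rep w * k)⁻¹ := by group
  have hquad : InvQuad qf bf := by
    refine ⟨fun v w => ?_, fun u v w => ?_, fun v u => ?_, fun g v => ?_⟩
    · rw [hqf' (v + w) (rep v * rep w) (by rw [QuotientGroup.mk_mul, hrepspec, hrepspec, hadd])]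
      show nontrivInd _ = nontrivInd _ + nontrivInd _ + nontrivInd _
      set x := rep v
      set y := rep w
      have hk := hcomZ x y
      set k := x⁻¹ * y * x * y⁻¹ with hk'
      have e : x * y * (x * y) = x * x * (y * y) * k := by
        have hc : k * (y * y) = (y * y) * k := (Subgroup.mem_center_iff.1 hk _).symm
        calc x * y * (x * y) = x * x * (k * (y * y)) := by rw [hk']; group
          _ = x * x * ((y * y) * k) := by rw [hc]
          _ = x * x * (y * y) * k := by group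
      rw [e, hind _ _ (mul_mem (hsqZ x) (hsqZ y)) hk, hind _ _ (hsqZ x) (hsqZ y)]
    · rw [hbf' u (v + w) (rep v * rep w) (by rw [QuotientGroup.mk_mul, hrepspec, hrepspec, hadd])]
      show nontrivInd _ = nontrivInd _ + nontrivInd _
      set x := rep u
      set y := rep v
      set y' := rep w
      have hk := hcomZ x y'
      set k := x⁻¹ * y' * x * y'⁻¹ with hk'
      have hc : k * y⁻¹ = y⁻¹ * k := (Subgroup.mem_center_iff.1 hk _).symm
      have e : x⁻¹ * (y * y') * x * (y * y')⁻¹ = (x⁻¹ * y * x * y⁻¹) * k := by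
        calc x⁻¹ * (y * y') * x * (y * y')⁻¹ = x⁻¹ * y * x * (k * y⁻¹) := by rw [hk']; group
          _ = x⁻¹ * y * x * (y⁻¹ * k) := by rw [hc]
          _ = (x⁻¹ * y * x * y⁻¹) * k := by group
      rw [e, hind _ _ (hcomZ x y) hk]
    · exact (hqf' _ (rep v) (by rw [hrepspec, hadd, (hker (u + u)).2 ⟨u, rfl⟩, mul_one])).trans rfl
    · obtain ⟨hq, hhq⟩ := e.surjective (QuotientGroup.mk g : Spor.Co1)
      obtain ⟨h, rfl⟩ := QuotientGroup.mk_surjective hq
      have hs := heq h g hhq.symm v (rep v) (hrepspec v).symm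
      rw [hqf' (g • v) _ hs.symm]
      show nontrivInd _ = nontrivInd (rep v * rep v)
      set φ : Q →* Q := {
        toFun := fun q => ⟨h * q * h⁻¹, (inferInstance : Q.Normal).conj_mem q q.2 h⟩
        map_one' := Subtype.ext (by simp)
        map_mul' := fun a b => Subtype.ext (by simp [mul_assoc]) } with hφ
      show nontrivInd (φ (rep v) * φ (rep v)) = _
      rw [← map_mul]
      have hφinj : Function.Injective φ := fun a b hab => by
        have := congrArg Subtype.val hab
        exact Subtype.ext (mul_left_cancel (mul_right_cancel this))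
      simp only [nontrivInd]
      congr 1
      exact propext (map_eq_one_iff φ hφinj)
  refine ⟨qf, bf, hquad, fun v x hx => ?_⟩
  rw [hqf' v x hx, nontrivInd]
  by_cases h : x * x = 1 <;> simp [h]

theorem psi_congr (hiso : IsLeechModTwoIso Q e ψ) {v w : leechLattice} (h : cls v = cls w) : ψ v = ψ w := by
  obtain ⟨u, hu, hvw⟩ := cls_eq_iff.1 h
  have e' : v = w + ((⟨u, hu⟩ : leechLattice) + ⟨u, hu⟩) := Subtype.ext (by
    rw [AddSubgroup.coe_add, AddSubgroup.coe_add, ← two_nsmul]
    show (v : GolayPt → ℤ) = (w : GolayPt → ℤ) + 2 • u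
    rw [← hvw]; abel)
  rw [e', hiso.1, (hiso.2.2.1 (⟨u, hu⟩ + ⟨u, hu⟩)).2 ⟨_, rfl⟩, mul_one]

theorem norm_cases (x : leechLattice) : ∃ y : leechLattice, cls x = cls y ∧
    ((y : GolayPt → ℤ) = 0 ∨ sqNorm (y : GolayPt → ℤ) = 32 ∨ sqNorm (y : GolayPt → ℤ) = 48 ∨
      sqNorm (y : GolayPt → ℤ) = 64) := by
  obtain ⟨y, hy, hxy⟩ := class_data.1 x
  refine ⟨y, hxy, ?_⟩
  by_cases h0 : (y : GolayPt → ℤ) = 0
  · exact Or.inl h0
  have := norm_dvd y.2
  have := min_norm y.2 h0
  omega

theorem quad_singular {qf : leechLattice → ZMod 2} {bf : leechLattice → leechLattice → ZMod 2} (h : InvQuad qf bf)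
    {v : leechLattice} (hv : sqNorm (v : GolayPt → ℤ) = 32 ∨ sqNorm (v : GolayPt → ℤ) = 64) : qf v = 0 := by
  rcases hv with hv | hv
  · obtain ⟨g, hg⟩ := trans32 hv (w := pairVec (pt 0) (pt 1)) (by decide +kernel)
    rw [← h.inv g v, hg, h.base_pair]
  · obtain ⟨g, hg⟩ := trans_cross hv (w := pairVec (pt 0) (pt 1) + pairVec (pt 2) (pt 3)) (by decide +kernel)
    rw [← h.inv g v, hg, h.add, h.pair_zero (by decide), h.pair_zero (by decide),
      h.pair_pair (by decide) (by decide), add_zero, add_zero]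

/-- The centre of `Q` consists of `1` and `z`. -/
theorem monster_center (h : IsExtraspecialCentralizerSetting z Q 12) (x : Q) :
    x ∈ Subgroup.center Q ↔ ((x : Subgroup.centralizer ({z} : Set G)) : G) = 1 ∨
      ((x : Subgroup.centralizer ({z} : Set G)) : G) = z := by
  obtain ⟨hz, hF, ⟨-, hZ2⟩, -, -⟩ := h
  have hzc : z ∈ Subgroup.centralizer ({z} : Set G) := Subgroup.mem_centralizer_singleton_iff.2 rfl
  have hzC : (⟨z, hzc⟩ : Subgroup.centralizer ({z} : Set G)) ∈ Subgroup.center _ := by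
    rw [Subgroup.mem_center_iff]
    exact fun g => Subtype.ext (Subgroup.mem_centralizer_singleton_iff.1 g.2)
  have hzQ : (⟨z, hzc⟩ : Subgroup.centralizer ({z} : Set G)) ∈ Q :=
    hF ▸ (le_sup_right : fittingSubgroup _ ≤ generalizedFittingSubgroup _) (Cfsg.Lib.ThreeT.center_le_fitting hzC)
  set zq : Q := ⟨_, hzQ⟩ with hzq
  have hzqc : zq ∈ Subgroup.center Q := by
    rw [Subgroup.mem_center_iff]
    exact fun g => Subtype.ext (Subgroup.mem_center_iff.1 hzC g)
  have hzne : z ≠ 1 := fun e => by rw [e, orderOf_one] at hz; omega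
  constructor
  · intro hx
    by_contra hc
    push Not at hc
    haveI := Fintype.ofFinite (Subgroup.center Q)
    classical
    have : ({1, ⟨zq, hzqc⟩, ⟨x, hx⟩} : Finset (Subgroup.center Q)).card = 3 := by
      rw [Finset.card_insert_of_notMem, Finset.card_pair]
      · intro e
        exact hc.2 (congrArg (fun a : Subgroup.center Q => (((a : Q) : Subgroup.centralizer ({z} : Set G)) : G)) e).symm
      · simp only [Finset.mem_insert, Finset.mem_singleton, not_or]
        exact ⟨fun e => hzne (congrArg (fun a : Subgroup.center Q => (((a : Q) : Subgroup.centralizer ({z} : Set G)) : G)) e).symm,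
          fun e => hc.1 (congrArg (fun a : Subgroup.center Q => (((a : Q) : Subgroup.centralizer ({z} : Set G)) : G)) e).symm⟩
    have h2 := Finset.card_le_univ ({1, ⟨zq, hzqc⟩, ⟨x, hx⟩} : Finset (Subgroup.center Q))
    rw [Nat.card_eq_fintype_card] at hZ2
    omega
  · rintro (h1 | h1)
    · rw [show x = 1 from Subtype.ext (Subtype.ext h1)]; exact one_mem _
    · rw [show x = zq from Subtype.ext (Subtype.ext h1)]; exact hzqc

/-- Non-central involutions lie in classes of norm 32 or 64. -/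
theorem monster_involution (hX : IsExtraspecial 2 Q) (hcard : Nat.card Q = 2 ^ 25) (hiso : IsLeechModTwoIso Q e ψ)
    (x : Q) (hx2 : x * x = 1) (hxc : x ∉ Subgroup.center Q) :
    ∃ v : leechLattice, (sqNorm (v : GolayPt → ℤ) = 32 ∨ sqNorm (v : GolayPt → ℤ) = 64) ∧
      ψ v = QuotientGroup.mk x := by
  obtain ⟨qf, bf, hq, hqx⟩ := monster_quad hX hiso
  obtain ⟨v, hv⟩ := hiso.2.1 (QuotientGroup.mk x)
  obtain ⟨y, hvy, hy⟩ := norm_cases v
  rw [psi_congr hiso hvy] at hv
  rcases hy with hy | hy | hy | hy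
  · exfalso
    apply hxc
    rw [show y = 0 from Subtype.ext hy, (hiso.2.2.1 0).2 ⟨0, by simp⟩] at hv
    exact (QuotientGroup.eq_one_iff x).1 hv.symm
  · exact ⟨y, Or.inl hy, hv⟩
  · exfalso
    have h0 : qf y = 0 := (hqx y x hv.symm).2 hx2
    have hall : ∀ q : Q, q * q = 1 := by
      intro q
      obtain ⟨w, hw⟩ := hiso.2.1 (QuotientGroup.mk q)
      obtain ⟨w', hww, hw'⟩ := norm_cases w
      rw [psi_congr hiso hww] at hw
      refine (hqx w' q hw.symm).1 ?_
      rcases hw' with hw' | hw' | hw' | hw'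
      · rw [show w' = 0 from Subtype.ext hw']; exact hq.zero
      · exact quad_singular hq (Or.inl hw')
      · obtain ⟨g, hg⟩ := trans48 hy hw'
        rw [← hg, hq.inv]; exact h0
      · exact quad_singular hq (Or.inr hw')
    have htop : Subgroup.center Q = ⊤ := by
      rw [Subgroup.eq_top_iff']
      intro q
      rw [Subgroup.mem_center_iff]
      intro r
      calc r * q = r * q * ((q * r) * (q * r)) := by rw [hall (q * r), mul_one]
        _ = r * (q * q) * r * (q * r) := by group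
        _ = q * r := by rw [hall q, mul_one, hall r, one_mul]
    have := hX.2
    rw [htop, Subgroup.card_top, hcard] at this
    norm_num at this
  · exact ⟨y, Or.inr hy, hv⟩

/-- Non-central elements over classes in one orbit are conjugate in the centralizer. -/
theorem monster_conj_image (hX : IsExtraspecial 2 Q) (hiso : IsLeechModTwoIso Q e ψ) {x y : Q}
    (hy : y ∉ Subgroup.center Q) {v w : leechLattice} (hv : ψ v = QuotientGroup.mk x) (hw : ψ w = QuotientGroup.mk y)
    {g : Co0} (hg : g • v = w) :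
    ∃ h : Subgroup.centralizer ({z} : Set G),
      h * (x : Subgroup.centralizer ({z} : Set G)) * h⁻¹ = (y : Subgroup.centralizer ({z} : Set G)) ∧
        e (QuotientGroup.mk h) = QuotientGroup.mk g := by
  obtain ⟨hadd, hsurj, hker, heq⟩ := hiso
  obtain ⟨hq, hhq⟩ := e.surjective (QuotientGroup.mk g : Spor.Co1)
  obtain ⟨h, rfl⟩ := QuotientGroup.mk_surjective hq
  have hs := heq h g hhq.symm v x hv
  rw [hg, hw] at hs
  set x' : Q := ⟨h * x * h⁻¹, (inferInstance : Q.Normal).conj_mem (x : Subgroup.centralizer ({z} : Set G)) x.2 h⟩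
    with hx'
  by_cases hxy : x' = y
  · exact ⟨h, congrArg Subtype.val hxy, hhq⟩
  have hk : x'⁻¹ * y ∈ Subgroup.center Q := QuotientGroup.eq.1 hs.symm
  have hkne : x'⁻¹ * y ≠ 1 := fun e1 => hxy (inv_mul_eq_one.1 e1)
  obtain ⟨q, hq⟩ : ∃ q : Q, q * x' ≠ x' * q := by
    by_contra hc
    push Not at hc
    refine hy ?_
    have : x' ∈ Subgroup.center Q := Subgroup.mem_center_iff.2 hc
    rw [show y = x' * (x'⁻¹ * y) by group]
    exact mul_mem this hk
  have hcq : x'⁻¹ * (q * x' * q⁻¹) ∈ Subgroup.center Q := by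
    obtain ⟨a, ha⟩ := hsurj (QuotientGroup.mk q)
    obtain ⟨b, hb⟩ := hsurj (QuotientGroup.mk x')
    rw [← QuotientGroup.eq_one_iff, QuotientGroup.mk_mul, QuotientGroup.mk_mul, QuotientGroup.mk_mul,
      QuotientGroup.mk_inv, QuotientGroup.mk_inv, ← ha, ← hb,
      show ψ a * ψ b = ψ b * ψ a by rw [← hadd, ← hadd, add_comm]]
    group
  have hcne : x'⁻¹ * (q * x' * q⁻¹) ≠ 1 := fun e1 => hq (by
    have := inv_mul_eq_one.1 e1
    calc q * x' = q * x' * q⁻¹ * q := by group
      _ = x' * q := by rw [← this])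
  have huniq : ∀ a b : Subgroup.center Q, a ≠ 1 → b ≠ 1 → a = b := by
    intro a b ha hb
    by_contra hab
    classical
    haveI := Fintype.ofFinite (Subgroup.center Q)
    have h3 : ({1, a, b} : Finset (Subgroup.center Q)).card = 3 := by
      rw [Finset.card_insert_of_notMem, Finset.card_pair hab]
      simp [Ne.symm ha, Ne.symm hb]
    have h2 := Finset.card_le_univ ({1, a, b} : Finset (Subgroup.center Q))
    have hZ2 := hX.2
    rw [Nat.card_eq_fintype_card] at hZ2
    omega
  have hh := congrArg Subtype.val (huniq ⟨_, hcq⟩ ⟨_, hk⟩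
    (fun e1 => hcne (congrArg Subtype.val e1)) (fun e1 => hkne (congrArg Subtype.val e1)))
  have hqy : q * x' * q⁻¹ = y := mul_left_cancel hh
  refine ⟨q * h, ?_, by rw [QuotientGroup.mk_mul, (QuotientGroup.eq_one_iff _).2 q.2, one_mul, hhq]⟩
  have := congrArg Subtype.val hqy
  rw [← this, hx']
  simp [mul_assoc]

/-- Conjugacy alone. -/
theorem monster_conj (hX : IsExtraspecial 2 Q) (hiso : IsLeechModTwoIso Q e ψ) {x y : Q}
    (hy : y ∉ Subgroup.center Q) {v w : leechLattice} (hv : ψ v = QuotientGroup.mk x) (hw : ψ w = QuotientGroup.mk y)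
    {g : Co0} (hg : g • v = w) :
    ∃ h : Subgroup.centralizer ({z} : Set G),
      h * (x : Subgroup.centralizer ({z} : Set G)) * h⁻¹ = (y : Subgroup.centralizer ({z} : Set G)) := by
  obtain ⟨h, hh, -⟩ := monster_conj_image hX hiso hy hv hw hg
  exact ⟨h, hh⟩

/-- The conjugates of `z` in `Q` fill one orbit, so all other non-central involutions lie in a single one. -/
theorem monster_conj_nonfused (hM : IsOfMonsterType z Q) (s t : G)
    (hsQ : ∃ hsc : s ∈ Subgroup.centralizer ({z} : Set G), (⟨s, hsc⟩ : Subgroup.centralizer ({z} : Set G)) ∈ Q)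
    (htQ : ∃ htc : t ∈ Subgroup.centralizer ({z} : Set G), (⟨t, htc⟩ : Subgroup.centralizer ({z} : Set G)) ∈ Q)
    (hs2 : orderOf s = 2) (ht2 : orderOf t = 2) (hs : ¬ IsConj z s) (ht : ¬ IsConj z t) :
    ∃ h ∈ Subgroup.centralizer ({z} : Set G), h * s * h⁻¹ = t := by
  obtain ⟨hset, e, ψ, hiso⟩ := hM
  have hX := hset.2.2.1
  have hcard : Nat.card Q = 2 ^ 25 := hset.2.2.2.1
  obtain ⟨c, ⟨huc, huQ⟩, hune⟩ := hset.2.2.2.2
  obtain ⟨hsc, hsQ⟩ := hsQ
  obtain ⟨htc, htQ⟩ := htQ
  have key : ∀ (a : G) (ha : a ∈ Subgroup.centralizer ({z} : Set G))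
      (haQ : (⟨a, ha⟩ : Subgroup.centralizer ({z} : Set G)) ∈ Q), orderOf a = 2 → a ≠ z →
      (⟨_, haQ⟩ : Q) ∉ Subgroup.center Q ∧ ∃ v : leechLattice,
        (sqNorm (v : GolayPt → ℤ) = 32 ∨ sqNorm (v : GolayPt → ℤ) = 64) ∧
        ψ v = QuotientGroup.mk (⟨_, haQ⟩ : Q) := by
    intro a ha haQ h2 hne
    have hnc : (⟨_, haQ⟩ : Q) ∉ Subgroup.center Q := fun hc => by
      rcases (monster_center hset _).1 hc with h1 | h1
      · rw [show a = 1 from h1, orderOf_one] at h2; omega
      · exact hne h1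
    refine ⟨hnc, monster_involution hX hcard hiso _ ?_ hnc⟩
    apply Subtype.ext; apply Subtype.ext
    show a * a = 1
    rw [← pow_two, ← h2]; exact pow_orderOf_eq_one a
  have hu2 : orderOf (c * z * c⁻¹) = 2 := by
    rw [show c * z * c⁻¹ = MulAut.conj c z from rfl, MulEquiv.orderOf_eq]; exact hset.1
  have hzu : IsConj z (c * z * c⁻¹) := isConj_iff.2 ⟨c, rfl⟩
  have hrefl : IsConj z z := IsConj.refl z
  obtain ⟨hun, u, hu, huψ⟩ := key _ huc huQ hu2 hune
  obtain ⟨hsn, v, hv, hvψ⟩ := key s hsc hsQ hs2 (fun e => hs (e ▸ hrefl))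
  obtain ⟨htn, w, hw, hwψ⟩ := key t htc htQ ht2 (fun e => ht (e ▸ hrefl))
  have far : ∀ (a : G) (ha : a ∈ Subgroup.centralizer ({z} : Set G))
      (haQ : (⟨a, ha⟩ : Subgroup.centralizer ({z} : Set G)) ∈ Q) (v' : leechLattice),
      (⟨_, haQ⟩ : Q) ∉ Subgroup.center Q → ψ v' = QuotientGroup.mk (⟨_, haQ⟩ : Q) → ¬ IsConj z a →
      ∀ g : Co0, g • u ≠ v' := by
    intro a ha haQ v' hn hψ' hna g hg
    obtain ⟨h, hh⟩ := monster_conj hX hiso hn huψ hψ' hg
    exact hna (hzu.trans (isConj_iff.2 ⟨h, congrArg Subtype.val hh⟩))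
  obtain ⟨g, hg⟩ : ∃ g : Co0, g • v = w := by
    rcases hv with hv | hv <;> rcases hw with hw | hw
    · exact trans32 hv hw
    · rcases hu with hu | hu
      · exact (far s hsc hsQ v hsn hvψ hs _ (trans32 hu hv).choose_spec).elim
      · exact (far t htc htQ w htn hwψ ht _ (trans_cross hu hw).choose_spec).elim
    · rcases hu with hu | hu
      · exact (far t htc htQ w htn hwψ ht _ (trans32 hu hw).choose_spec).elim
      · exact (far s hsc hsQ v hsn hvψ hs _ (trans_cross hu hv).choose_spec).elim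
    · exact trans_cross hv hw
  obtain ⟨h, hh⟩ := monster_conj hX hiso htn hvψ hwψ hg
  exact ⟨h, h.2, congrArg Subtype.val hh⟩

end Cfsg.Lib.Leech
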