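import Mathlib
import Cfsg.Agent.Lib.Leech.MonsterQ
import Cfsg.Agent.Lib.Leech.Perp

/-!
In a group of Monster type no element of `Q` over a class of norm 32 is conjugate to `z`.
-/

set_option autoImplicit false

namespace Cfsg.Lib.Leech

open Cfsg Cfsg.Lib.Golay

variable {G : Type*} [Group G] [Finite G] {z : G} {Q : Subgroup (Subgroup.centralizer ({z} : Set G))} [Q.Normal]
  {e : (Subgroup.centralizer ({z} : Set G)) ⧸ Q ≃* Spor.Co1} {ψ : leechLattice → Q ⧸ Subgroup.center Q}

theorem psi_zero (hiso : IsLeechModTwoIso Q e ψ) : ψ 0 = 1 := (hiso.2.2.1 0).2 ⟨0, by simp⟩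

theorem psi_cls_iff (hiso : IsLeechModTwoIso Q e ψ) {v w : leechLattice} : ψ v = ψ w ↔ cls v = cls w := by
  refine ⟨fun h => ?_, psi_congr hiso⟩
  have h1 : ψ (v - w) = 1 := by
    have e1 : ψ v = ψ (v - w) * ψ w := by rw [← hiso.1, sub_add_cancel]
    rw [h] at e1
    exact mul_eq_right.1 e1.symm
  obtain ⟨u, hu⟩ := (hiso.2.2.1 _).1 h1
  exact cls_eq_iff.2 ⟨u, u.2, by rw [← AddSubgroup.coe_sub, hu, AddSubgroup.coe_add, two_nsmul]⟩

theorem cls_ne_zero {v : leechLattice} (hv : sqNorm (v : GolayPt → ℤ) = 32 ∨ sqNorm (v : GolayPt → ℤ) = 64) :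
    cls v ≠ cls 0 := by
  intro h
  obtain ⟨z, hz, e'⟩ := cls_eq_iff.1 h
  have h0 : (v : GolayPt → ℤ) ≠ 0 := fun e0 => by rw [e0] at hv; simp [sqNorm] at hv
  rcases congr_cases (y := (0 : GolayPt → ℤ)) v.2 h0 (by omega) (by simp [sqNorm]) ⟨z, hz, by simpa using e'⟩ with
    q | ⟨-, q, -⟩
  · exact h0 (by rw [q, neg_zero])
  · simp [sqNorm] at q

theorem psi_not_center (hiso : IsLeechModTwoIso Q e ψ) {x : Q} {v : leechLattice}
    (hv : sqNorm (v : GolayPt → ℤ) = 32 ∨ sqNorm (v : GolayPt → ℤ) = 64) (h : ψ v = QuotientGroup.mk x) :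
    x ∉ Subgroup.center Q := fun hx => by
  rw [(QuotientGroup.eq_one_iff x).2 hx, ← psi_zero hiso] at h
  exact cls_ne_zero hv ((psi_cls_iff hiso).1 h)

theorem monster_square (hX : IsExtraspecial 2 Q) (hiso : IsLeechModTwoIso Q e ψ) {x : Q} {v : leechLattice}
    (hv : sqNorm (v : GolayPt → ℤ) = 32 ∨ sqNorm (v : GolayPt → ℤ) = 64) (h : ψ v = QuotientGroup.mk x) :
    x * x = 1 := by
  obtain ⟨qf, bf, hq, hqx⟩ := monster_quad hX hiso
  exact (hqx v x h.symm).1 (quad_singular hq hv)

theorem monster_even (hX : IsExtraspecial 2 Q) (hcard : Nat.card Q = 2 ^ 25) (hiso : IsLeechModTwoIso Q e ψ) {x : Q}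
    (hx : x * x = 1) {v : leechLattice} (h : ψ v = QuotientGroup.mk x) :
    sqNorm (v : GolayPt → ℤ) % 32 = 0 := by
  have hn := norm_dvd v.2
  suffices ∃ y : leechLattice, sqNorm (y : GolayPt → ℤ) % 32 = 0 ∧ cls v = cls y by
    obtain ⟨y, hy, hc⟩ := this
    have h2 := norm_mod_two v y hc
    rw [ZMod.intCast_eq_intCast_iff'] at h2
    omega
  by_cases hc : x ∈ Subgroup.center Q
  · refine ⟨0, by simp [sqNorm], (psi_cls_iff hiso).1 ?_⟩
    rw [h, psi_zero hiso, (QuotientGroup.eq_one_iff x).2 hc]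
  · obtain ⟨y, hy, hy'⟩ := monster_involution hX hcard hiso x hx hc
    exact ⟨y, by omega, (psi_cls_iff hiso).1 (by rw [h, hy'])⟩

/-- An involutive automorphism of a group of order `2^25` with commutative exponent-two central quotient of
order `2^24` fixes at least `2^12` elements. -/
theorem card_fixed_involution {K : Type*} [Group K] [Finite K] (hcard : Nat.card K = 2 ^ 25)
    (hZ : Nat.card (Subgroup.center K) = 2) (hsq : ∀ a : K ⧸ Subgroup.center K, a * a = 1) (φ : K →* K)
    (hinv : ∀ a, φ (φ a) = a) (hφc : ∀ a ∈ Subgroup.center K, φ a ∈ Subgroup.center K) :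
    2 ^ 12 ≤ Nat.card {a : K // φ a = a} := by
  have hcomm : ∀ a b : K ⧸ Subgroup.center K, a * b = b * a := fun a b => by
    have hi : ∀ c : K ⧸ Subgroup.center K, c⁻¹ = c := fun c => inv_eq_of_mul_eq_one_right (hsq c)
    calc a * b = (a * b)⁻¹ := (hi _).symm
      _ = b * a := by rw [mul_inv_rev, hi, hi]
  let σ : K ⧸ Subgroup.center K →* K ⧸ Subgroup.center K :=
    QuotientGroup.map _ _ φ (fun a ha => hφc a ha)
  have hσ : ∀ a, σ (σ a) = a := fun a => by
    induction a using QuotientGroup.induction_on with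
    | _ a => exact congrArg QuotientGroup.mk (hinv a)
  let θ : K ⧸ Subgroup.center K →* K ⧸ Subgroup.center K :=
    { toFun := fun a => a * σ a
      map_one' := by simp
      map_mul' := fun a b => by rw [map_mul, mul_assoc, ← mul_assoc b, hcomm b (σ a), mul_assoc, mul_assoc] }
  have hle : θ.range ≤ θ.ker := by
    rintro _ ⟨a, rfl⟩
    show a * σ a * σ (a * σ a) = 1
    rw [map_mul, hσ, mul_assoc, ← mul_assoc (σ a), hsq, one_mul, hsq]
  have hP : Nat.card (K ⧸ Subgroup.center K) = 2 ^ 24 := by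
    have h := (Subgroup.center K).card_mul_index
    rw [show (Subgroup.center K).index = Nat.card (K ⧸ Subgroup.center K) from rfl, hZ, hcard] at h
    omega
  have hker : 2 ^ 12 ≤ Nat.card θ.ker := by
    have h1 := θ.ker.card_mul_index
    rw [Subgroup.index_ker, hP] at h1
    have h2 : Nat.card θ.range ≤ Nat.card θ.ker := Subgroup.card_le_of_le hle
    by_contra hlt
    push Not at hlt
    have : Nat.card θ.ker * Nat.card θ.range < 2 ^ 12 * 2 ^ 12 :=
      lt_of_le_of_lt (Nat.mul_le_mul_left _ h2) (Nat.mul_lt_mul'' hlt hlt)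
    omega
  set L := θ.ker.comap (QuotientGroup.mk' (Subgroup.center K)) with hL
  have hLcard : Nat.card L = 2 * Nat.card θ.ker := by
    have h1 := L.card_mul_index
    have h2 := θ.ker.card_mul_index
    rw [hL, θ.ker.index_comap_of_surjective (QuotientGroup.mk'_surjective (Subgroup.center K))] at h1
    rw [hP] at h2
    rw [hcard] at h1
    have hpos : 0 < θ.ker.index := Nat.pos_of_ne_zero Subgroup.index_ne_zero_of_finite
    refine Nat.eq_of_mul_eq_mul_right hpos ?_
    rw [hL, h1, mul_assoc, h2]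
    norm_num
  have hmemL : ∀ a ∈ L, a⁻¹ * φ a ∈ Subgroup.center K := by
    intro a ha
    rw [← QuotientGroup.eq]
    have h : (QuotientGroup.mk a : K ⧸ Subgroup.center K) * QuotientGroup.mk (φ a) = 1 := ha
    rw [← hsq (QuotientGroup.mk a)] at h
    exact (mul_left_cancel h).symm
  let η : L →* Subgroup.center K :=
    { toFun := fun a => ⟨_, hmemL a a.2⟩
      map_one' := Subtype.ext (by simp)
      map_mul' := fun a b => Subtype.ext (by
        have hc := Subgroup.mem_center_iff.1 (hmemL a a.2) ((b : K)⁻¹)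
        simp only [Subgroup.coe_mul, map_mul, mul_inv_rev]
        calc (b : K)⁻¹ * (a : K)⁻¹ * (φ a * φ b) = (b : K)⁻¹ * ((a : K)⁻¹ * φ a) * φ b := by group
          _ = ((a : K)⁻¹ * φ a) * (b : K)⁻¹ * φ b := by rw [hc]
          _ = (a : K)⁻¹ * φ a * ((b : K)⁻¹ * φ b) := by group) }
  have h3 := η.ker.card_mul_index
  rw [Subgroup.index_ker, hLcard] at h3
  have h4 : Nat.card η.range ≤ 2 := hZ ▸ Subgroup.card_le_card_group _
  have h5 : Nat.card η.ker ≤ Nat.card {a : K // φ a = a} := by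
    refine Nat.card_le_card_of_injective
      (fun a => (⟨((a : L) : K), ?_⟩ : {a : K // φ a = a})) (fun a b hab => Subtype.ext (Subtype.ext
        (congrArg (fun x : {a : K // φ a = a} => (x : K)) hab)))
    have := congrArg Subtype.val (a.2 : η (a : L) = 1)
    exact (inv_mul_eq_one.1 this).symm
  have : 2 * Nat.card θ.ker ≤ Nat.card η.ker * 2 := h3 ▸ Nat.mul_le_mul_left _ h4
  omega

/-- A lift of a lattice automorphism fixing a class to the centralizer of an element over that class. -/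
theorem monster_lift (hX : IsExtraspecial 2 Q) (hiso : IsLeechModTwoIso Q e ψ) {x : Q}
    (hx : x ∉ Subgroup.center Q) {v : leechLattice} (hv : ψ v = QuotientGroup.mk x) {g : Co0} (hg : g • v = v) :
    ∃ h : Subgroup.centralizer ({z} : Set G), h * (x : Subgroup.centralizer ({z} : Set G)) * h⁻¹ = x ∧
      ∀ (w : leechLattice) (q : Q), ψ w = QuotientGroup.mk q → ψ (g • w) = QuotientGroup.mk
        (⟨h * q * h⁻¹, (inferInstance : Q.Normal).conj_mem (q : Subgroup.centralizer ({z} : Set G)) q.2 h⟩ : Q) := by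
  obtain ⟨h, hh, he⟩ := monster_conj_image hX hiso hx hv hv hg
  exact ⟨h, hh, fun w q hw => hiso.2.2.2 h g he.symm w q hw⟩

theorem not_conj_minimal (hset : IsExtraspecialCentralizerSetting z Q 12) (hiso : IsLeechModTwoIso Q e ψ) (x : Q)
    {v : leechLattice} (hv : sqNorm (v : GolayPt → ℤ) = 32) (hvx : ψ v = QuotientGroup.mk x) :
    ¬ IsConj z ((x : Subgroup.centralizer ({z} : Set G)) : G) := by
  rintro hconj
  obtain ⟨c, hc⟩ := isConj_iff.1 hconj
  have hX := hset.2.2.1
  have hcard : Nat.card Q = 2 ^ 25 := hset.2.2.2.1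
  have hxc := psi_not_center hiso (Or.inl hv) hvx
  set s : G := ((x : (Subgroup.centralizer ({z} : Set G))) : G) with hs
  have hcs : ∀ a : G, a * s = s * a → c⁻¹ * a * c ∈ (Subgroup.centralizer ({z} : Set G)) := fun a ha => by
    rw [Subgroup.mem_centralizer_singleton_iff]
    have e1 : z = c⁻¹ * s * c := by rw [← hc]; group
    rw [e1]
    calc c⁻¹ * a * c * (c⁻¹ * s * c) = c⁻¹ * (a * s) * c := by group
      _ = c⁻¹ * (s * a) * c := by rw [ha]
      _ = c⁻¹ * s * c * (c⁻¹ * a * c) := by group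
  set R : Subgroup (Subgroup.centralizer ({z} : Set G)) := (Q.map (Subgroup.centralizer ({z} : Set G)).subtype).comap ((MulAut.conj c⁻¹).toMonoidHom.comp (Subgroup.centralizer ({z} : Set G)).subtype) with hR
  have memR : ∀ a : (Subgroup.centralizer ({z} : Set G)), a ∈ R ↔ ∃ q : Q, ((q : (Subgroup.centralizer ({z} : Set G))) : G) = c⁻¹ * (a : G) * c := by
    intro a
    simp [hR, Subgroup.mem_map]
  -- the centre
  obtain ⟨zq, hzq⟩ : ∃ q : Q, ((q : (Subgroup.centralizer ({z} : Set G))) : G) = z := by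
    haveI : Nontrivial (Subgroup.center Q) := Finite.one_lt_card_iff_nontrivial.1 (by rw [hX.2]; omega)
    obtain ⟨a, ha⟩ := exists_ne (1 : Subgroup.center Q)
    exact ⟨(a : Q), ((monster_center hset (a : Q)).1 a.2).resolve_left
      (fun e1 => ha (Subtype.ext (Subtype.ext (Subtype.ext e1))))⟩
  have hxR : (x : (Subgroup.centralizer ({z} : Set G))) ∈ R := (memR _).2 ⟨zq, by rw [hzq, ← hs, ← hc]; group⟩
  have hRs : ∀ a ∈ R, (a : G) * s = s * (a : G) := by
    intro a ha
    obtain ⟨q, hq⟩ := (memR a).1 ha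
    have h1 : ((q : (Subgroup.centralizer ({z} : Set G))) : G) * z = z * ((q : (Subgroup.centralizer ({z} : Set G))) : G) := Subgroup.mem_centralizer_singleton_iff.1 (q : (Subgroup.centralizer ({z} : Set G))).2
    rw [hq] at h1
    have e1 : s = c * z * c⁻¹ := hc.symm
    rw [e1]
    calc (a : G) * (c * z * c⁻¹) = c * (c⁻¹ * (a : G) * c * z) * c⁻¹ := by group
      _ = c * (z * (c⁻¹ * (a : G) * c)) * c⁻¹ := by rw [h1]
      _ = c * z * c⁻¹ * (a : G) := by group
  have hnorm : ∀ d : (Subgroup.centralizer ({z} : Set G)), (d : G) * s = s * (d : G) → ∀ a ∈ R, d * a * d⁻¹ ∈ R := by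
    intro d hd a ha
    obtain ⟨q, hq⟩ := (memR a).1 ha
    refine (memR _).2 ⟨⟨⟨_, hcs d hd⟩ * (q : (Subgroup.centralizer ({z} : Set G))) * ⟨_, hcs d hd⟩⁻¹,
      (inferInstance : Q.Normal).conj_mem (q : (Subgroup.centralizer ({z} : Set G))) q.2 _⟩, ?_⟩
    show c⁻¹ * (d : G) * c * ((q : (Subgroup.centralizer ({z} : Set G))) : G) * (c⁻¹ * (d : G) * c)⁻¹ = c⁻¹ * ((d * a * d⁻¹ : (Subgroup.centralizer ({z} : Set G))) : G) * c
    rw [hq]
    simp only [Subgroup.coe_mul, Subgroup.coe_inv]
    group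
  have hsqQ : ∀ q : Q, q * q ∈ Subgroup.center Q := by
    intro q
    obtain ⟨a, ha⟩ := hiso.2.1 (QuotientGroup.mk q)
    rw [← QuotientGroup.eq_one_iff, QuotientGroup.mk_mul, ← ha, ← hiso.1]
    exact (hiso.2.2.1 _).2 ⟨a, rfl⟩
  have hzne : z ≠ 1 := fun e1 => by have := hset.1; rw [e1, orderOf_one] at this; omega
  have hsne : s ≠ z := fun e1 => hxc ((monster_center hset x).2 (Or.inr e1))
  have hsq : ∀ r : Q, (r : (Subgroup.centralizer ({z} : Set G))) ∈ R → r * r = 1 := by
    intro r hr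
    obtain ⟨q, hq⟩ := (memR _).1 hr
    have h1 := (monster_center hset _).1 (hsqQ r)
    have h2 := (monster_center hset _).1 (hsqQ q)
    have e2 : (((q * q : Q) : (Subgroup.centralizer ({z} : Set G))) : G) = c⁻¹ * (((r * r : Q) : (Subgroup.centralizer ({z} : Set G))) : G) * c := by
      simp only [Subgroup.coe_mul, hq]; group
    rcases h1 with h1 | h1
    · exact Subtype.ext (Subtype.ext h1)
    · exfalso
      rw [h1] at e2
      rw [e2] at h2
      rcases h2 with h2 | h2
      · exact hzne (by calc z = c * (c⁻¹ * z * c) * c⁻¹ := by group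
          _ = 1 := by rw [h2]; group)
      · refine hsne ?_
        rw [← hc]
        calc c * z * c⁻¹ = c * (c⁻¹ * z * c) * c⁻¹ := by rw [h2]
          _ = z := by group
  -- step one: the part inside `Q`
  have step1 : ∀ r : Q, (r : (Subgroup.centralizer ({z} : Set G))) ∈ R → (QuotientGroup.mk r : Q ⧸ Subgroup.center Q) = 1 ∨
      (QuotientGroup.mk r : Q ⧸ Subgroup.center Q) = QuotientGroup.mk x := by
    intro r hr
    by_cases hrc : r ∈ Subgroup.center Q
    · exact Or.inl ((QuotientGroup.eq_one_iff r).2 hrc)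
    obtain ⟨w, hw, hwr⟩ := monster_involution hX hcard hiso r (hsq r hr) hrc
    by_cases hwv : cls w = cls v
    · exact Or.inr (by rw [← hwr, ← hvx, (psi_cls_iff hiso).2 hwv])
    exfalso
    have hd : dotInt (v : GolayPt → ℤ) w % 16 = 0 := by
      have := monster_even hX hcard hiso (hsq (x * r) (mul_mem hxR hr)) (v := v + w)
        (by rw [hiso.1, hvx, hwr, QuotientGroup.mk_mul])
      rw [norm_sum, hv] at this
      omega
    obtain ⟨g, hgv, hgd⟩ := exists_nonorth hv hw hd hwv
    obtain ⟨h, hh, hlift⟩ := monster_lift hX hiso hxc hvx hgv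
    have hhs : (h : G) * s = s * (h : G) := by
      have := congrArg (fun a : (Subgroup.centralizer ({z} : Set G)) => (a : G)) hh
      simp only [Subgroup.coe_mul, Subgroup.coe_inv] at this
      calc (h : G) * s = ((h : G) * s * (h : G)⁻¹) * h := by group
        _ = s * h := by rw [this]
    set r' : Q := ⟨h * r * h⁻¹, (inferInstance : Q.Normal).conj_mem (r : (Subgroup.centralizer ({z} : Set G))) r.2 h⟩ with hr'
    have hr'R : (r' : (Subgroup.centralizer ({z} : Set G))) ∈ R := hnorm h hhs _ hr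
    have := monster_even hX hcard hiso (hsq (r * r') (mul_mem hr hr'R)) (v := w + g • w)
      (by rw [hiso.1, hwr, hlift w r hwr, QuotientGroup.mk_mul])
    rw [norm_sum, co0_norm] at this
    omega
  -- step two: `R` lies in `Q`
  have step2 : ∀ r ∈ R, r ∈ Q := by
    intro r hr
    obtain ⟨g₀, hg₀⟩ := QuotientGroup.mk_surjective (e (QuotientGroup.mk r))
    have hrs := hRs r hr
    have hcv : cls (g₀ • v) = cls v := by
      refine (psi_cls_iff hiso).1 ?_
      rw [hiso.2.2.2 r g₀ hg₀ v x hvx, hvx]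
      congr 1
      refine Subtype.ext (Subtype.ext ?_)
      show (r : G) * s * (r : G)⁻¹ = s
      rw [hrs]; group
    obtain ⟨g, hg, hgv⟩ : ∃ g : Co0, (QuotientGroup.mk g : Spor.Co1) = e (QuotientGroup.mk r) ∧ g • v = v := by
      by_cases he1 : g₀ • v = v
      · exact ⟨g₀, hg₀, he1⟩
      rcases congr_cases (g₀ • v).2 (fun e2 => he1 (Subtype.ext e2)) (by rw [co0_norm, hv]; omega)
        (by rw [hv]; omega) (cls_eq_iff.1 hcv) with h' | h'
      · refine ⟨negElt * g₀, ?_, ?_⟩
        · rw [QuotientGroup.mk_mul, hg₀, (QuotientGroup.eq_one_iff negElt).2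
            (Subgroup.mem_center_iff.2 fun h => (negElt_central h).symm), one_mul]
        · rw [mul_smul, negElt_apply]
          exact Subtype.ext (by rw [AddSubgroup.coe_neg, h', neg_neg])
      · rw [co0_norm, hv] at h'; omega
    obtain ⟨h₀, hh₀⟩ := exists_to_base32 hv
    have hk : h₀ * g * h₀⁻¹ = 1 := by
      refine trivial_of_perp (by rw [← hh₀, mul_smul, mul_smul, inv_smul_smul, hgv]) fun y hy hd => ?_
      set y' := h₀⁻¹ • y with hy'
      have hy'n : sqNorm (y' : GolayPt → ℤ) = 32 := by rw [hy', co0_norm, hy]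
      have hd' : dotInt (v : GolayPt → ℤ) y' = 0 := by
        rw [← co0_dot h₀, hh₀, hy', smul_inv_smul, hd]
      obtain ⟨q₀, hq₀⟩ := hiso.2.1 (ψ y')
      obtain ⟨q, hq⟩ := QuotientGroup.mk_surjective (ψ y')
      have hn64 : sqNorm ((v + y' : leechLattice) : GolayPt → ℤ) = 64 := by rw [norm_sum, hv, hy'n, hd']; norm_num
      have hcomm : q * x = x * q := by
        have h1 := monster_square hX hiso (Or.inl hy'n) hq.symm
        have h2 := monster_square hX hiso (Or.inl hv) hvx
        have h3 := monster_square hX hiso (x := x * q) (Or.inr hn64) (by rw [hiso.1, hvx, ← hq, QuotientGroup.mk_mul])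
        have i1 := inv_eq_of_mul_eq_one_right h1
        have i2 := inv_eq_of_mul_eq_one_right h2
        have i3 := inv_eq_of_mul_eq_one_right h3
        rw [mul_inv_rev, i1, i2] at i3
        exact i3
      have hqs : ((q : (Subgroup.centralizer ({z} : Set G))) : G) * s = s * ((q : (Subgroup.centralizer ({z} : Set G))) : G) := congrArg (fun a : Q => ((a : (Subgroup.centralizer ({z} : Set G))) : G)) hcomm
      set r' : Q := (⟨r * (q : (Subgroup.centralizer ({z} : Set G))) * r⁻¹, (inferInstance : Q.Normal).conj_mem (q : (Subgroup.centralizer ({z} : Set G))) q.2 r⟩ : Q) * q⁻¹ with hr'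
      have hr'R : (r' : (Subgroup.centralizer ({z} : Set G))) ∈ R := by
        have e1 : (r' : (Subgroup.centralizer ({z} : Set G))) = r * ((q : (Subgroup.centralizer ({z} : Set G))) * r⁻¹ * (q : (Subgroup.centralizer ({z} : Set G)))⁻¹) := by
          rw [hr']; simp only [Subgroup.coe_mul, Subgroup.coe_inv]; group
        rw [e1]
        exact mul_mem hr (hnorm (q : (Subgroup.centralizer ({z} : Set G))) hqs _ (inv_mem hr))
      have hmk : (QuotientGroup.mk r' : Q ⧸ Subgroup.center Q) = ψ (g • y') * (ψ y')⁻¹ := by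
        rw [hiso.2.2.2 r g hg y' q hq.symm, hr', QuotientGroup.mk_mul, QuotientGroup.mk_inv, hq]
      have hgy : cls (g • y') = cls y' := by
        refine (psi_cls_iff hiso).1 ?_
        rcases step1 r' hr'R with h' | h' <;> rw [hmk] at h'
        · exact mul_inv_eq_one.1 h'
        · exfalso
          rw [← hvx, mul_inv_eq_iff_eq_mul, ← hiso.1] at h'
          obtain ⟨u, hu, e'⟩ := cls_eq_iff.1 ((psi_cls_iff hiso).1 h')
          rcases congr_cases (g • y').2 (fun e2 => by
              have := congrArg sqNorm e2; rw [co0_norm, hy'n, hn64] at this; omega)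
            (by rw [co0_norm, hy'n]; omega) (by rw [hn64]) ⟨u, hu, e'⟩ with h'' | ⟨h'', -, -⟩
          · have := congrArg sqNorm h''
            rw [co0_norm, hy'n, neg_norm, hn64] at this; omega
          · rw [co0_norm, hy'n] at h''; omega
      have hgy' : g • y' = y' ∨ g • y' = -y' := by
        by_cases he1 : g • y' = y'
        · exact Or.inl he1
        rcases congr_cases (g • y').2 (fun e2 => he1 (Subtype.ext e2)) (by rw [co0_norm, hy'n]; omega)
          (by rw [hy'n]; omega) (cls_eq_iff.1 hgy) with h' | h'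
        · exact Or.inr (Subtype.ext h')
        · rw [co0_norm, hy'n] at h'; omega
      rcases hgy' with h' | h'
      · left; rw [mul_smul, mul_smul, ← hy', h', hy', smul_inv_smul]
      · right; rw [mul_smul, mul_smul, ← hy', h', co0_neg, hy', smul_inv_smul]
    have hg1 : g = 1 := by
      calc g = h₀⁻¹ * (h₀ * g * h₀⁻¹) * h₀ := by group
        _ = 1 := by rw [hk]; group
    rw [← QuotientGroup.eq_one_iff, ← MulEquiv.map_eq_one_iff e, ← hg, hg1]
    rfl
  -- `R` has at most four elements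
  have hsmall : Nat.card R ≤ 4 := by
    classical
    have hex : ∀ r : R, ∃ p : Subgroup.center Q × Bool,
        (r : (Subgroup.centralizer ({z} : Set G))) = ((p.1 : Q) : (Subgroup.centralizer ({z} : Set G))) * (if p.2 then (x : (Subgroup.centralizer ({z} : Set G))) else 1) := by
      intro r
      have hrQ := step2 r r.2
      rcases step1 ⟨_, hrQ⟩ r.2 with h | h
      · exact ⟨(⟨_, (QuotientGroup.eq_one_iff _).1 h⟩, false), by simp⟩
      · refine ⟨(⟨⟨(r : (Subgroup.centralizer ({z} : Set G))), hrQ⟩ * x⁻¹, ?_⟩, true), by simp⟩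
        rw [← QuotientGroup.eq_one_iff, QuotientGroup.mk_mul, QuotientGroup.mk_inv, h, mul_inv_cancel]
    choose p hp using hex
    have hinj : Function.Injective p := fun a b hab => Subtype.ext (by rw [hp a, hp b, hab])
    have := Nat.card_le_card_of_injective p hinj
    rw [Nat.card_prod, hX.2] at this
    simpa using this
  -- but `z` centralizes many elements of the conjugate of `Q`
  have hzc : z * s = s * z := (Subgroup.mem_centralizer_singleton_iff.1 (x : (Subgroup.centralizer ({z} : Set G))).2).symm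
  set z' : (Subgroup.centralizer ({z} : Set G)) := ⟨c⁻¹ * z * c, hcs z hzc⟩ with hz'
  let φ : Q →* Q :=
    { toFun := fun q => ⟨z' * q * z'⁻¹, (inferInstance : Q.Normal).conj_mem (q : (Subgroup.centralizer ({z} : Set G))) q.2 z'⟩
      map_one' := Subtype.ext (by simp)
      map_mul' := fun a b => Subtype.ext (by simp [mul_assoc]) }
  have hz2 : z * z = 1 := by rw [← pow_two, ← hset.1]; exact pow_orderOf_eq_one z
  have hz'2 : z' * z' = 1 := Subtype.ext (by
    show c⁻¹ * z * c * (c⁻¹ * z * c) = 1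
    calc c⁻¹ * z * c * (c⁻¹ * z * c) = c⁻¹ * (z * z) * c := by group
      _ = 1 := by rw [hz2]; group)
  have hbig := card_fixed_involution hcard hX.2 (fun a => by
      obtain ⟨q, rfl⟩ := QuotientGroup.mk_surjective a
      rw [← QuotientGroup.mk_mul]; exact (QuotientGroup.eq_one_iff _).2 (hsqQ q)) φ
    (fun a => Subtype.ext (by
      show z' * (z' * (a : (Subgroup.centralizer ({z} : Set G))) * z'⁻¹) * z'⁻¹ = a
      calc z' * (z' * (a : (Subgroup.centralizer ({z} : Set G))) * z'⁻¹) * z'⁻¹ = (z' * z') * (a : (Subgroup.centralizer ({z} : Set G))) * (z' * z')⁻¹ := by group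
        _ = a := by rw [hz'2]; group))
    (fun a ha => by
      rw [Subgroup.mem_center_iff] at ha ⊢
      intro b
      refine Subtype.ext ?_
      show (b : (Subgroup.centralizer ({z} : Set G))) * (z' * (a : (Subgroup.centralizer ({z} : Set G))) * z'⁻¹) = z' * (a : (Subgroup.centralizer ({z} : Set G))) * z'⁻¹ * b
      have := congrArg (fun t : Q => (t : (Subgroup.centralizer ({z} : Set G))))
        (ha ⟨z'⁻¹ * b * z'⁻¹⁻¹, (inferInstance : Q.Normal).conj_mem (b : (Subgroup.centralizer ({z} : Set G))) b.2 z'⁻¹⟩)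
      simp only [Subgroup.coe_mul] at this
      calc (b : (Subgroup.centralizer ({z} : Set G))) * (z' * (a : (Subgroup.centralizer ({z} : Set G))) * z'⁻¹) = z' * (z'⁻¹ * (b : (Subgroup.centralizer ({z} : Set G))) * z'⁻¹⁻¹ * a) * z'⁻¹ := by group
        _ = z' * ((a : (Subgroup.centralizer ({z} : Set G))) * (z'⁻¹ * (b : (Subgroup.centralizer ({z} : Set G))) * z'⁻¹⁻¹)) * z'⁻¹ := by rw [this]
        _ = z' * (a : (Subgroup.centralizer ({z} : Set G))) * z'⁻¹ * b := by group)
  have hmemC : ∀ a : {a : Q // φ a = a}, c * ((a.1 : (Subgroup.centralizer ({z} : Set G))) : G) * c⁻¹ ∈ (Subgroup.centralizer ({z} : Set G)) := by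
    intro a
    rw [Subgroup.mem_centralizer_singleton_iff]
    have h1 : z' * (a.1 : (Subgroup.centralizer ({z} : Set G))) * z'⁻¹ = a.1 := congrArg Subtype.val a.2
    have h2 : c⁻¹ * z * c * ((a.1 : (Subgroup.centralizer ({z} : Set G))) : G) * (c⁻¹ * z * c)⁻¹ = ((a.1 : (Subgroup.centralizer ({z} : Set G))) : G) :=
      congrArg (fun t : (Subgroup.centralizer ({z} : Set G)) => (t : G)) h1
    calc c * ((a.1 : (Subgroup.centralizer ({z} : Set G))) : G) * c⁻¹ * z
        = c * (c⁻¹ * z * c * ((a.1 : (Subgroup.centralizer ({z} : Set G))) : G) * (c⁻¹ * z * c)⁻¹) * c⁻¹ * z := by rw [h2]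
      _ = z * (c * ((a.1 : (Subgroup.centralizer ({z} : Set G))) : G) * c⁻¹) := by group
  have hinj : Nat.card {a : Q // φ a = a} ≤ Nat.card R := by
    refine Nat.card_le_card_of_injective
      (fun a => (⟨⟨_, hmemC a⟩, (memR _).2 ⟨a.1, by group⟩⟩ : R)) ?_
    intro a b hab
    have : c * ((a.1 : (Subgroup.centralizer ({z} : Set G))) : G) * c⁻¹ = c * ((b.1 : (Subgroup.centralizer ({z} : Set G))) : G) * c⁻¹ := congrArg (fun t : R => ((t : (Subgroup.centralizer ({z} : Set G))) : G)) hab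
    exact Subtype.ext (Subtype.ext (Subtype.ext (mul_left_cancel (mul_right_cancel this))))
  omega

/-- The conjugates of `z` in `Q` other than `z` are the elements over classes of norm 64. -/
theorem monster_fused_iff (hset : IsExtraspecialCentralizerSetting z Q 12) (hiso : IsLeechModTwoIso Q e ψ) (x : Q) :
    (IsConj z ((x : Subgroup.centralizer ({z} : Set G)) : G) ∧ ((x : Subgroup.centralizer ({z} : Set G)) : G) ≠ z) ↔
      ∃ v : leechLattice, sqNorm (v : GolayPt → ℤ) = 64 ∧ ψ v = QuotientGroup.mk x := by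
  have hX := hset.2.2.1
  have hcard : Nat.card Q = 2 ^ 25 := hset.2.2.2.1
  have key : ∀ y : Q, IsConj z ((y : Subgroup.centralizer ({z} : Set G)) : G) →
      ((y : Subgroup.centralizer ({z} : Set G)) : G) ≠ z →
      ∃ v : leechLattice, sqNorm (v : GolayPt → ℤ) = 64 ∧ ψ v = QuotientGroup.mk y := by
    intro y hy hne
    have ho : orderOf ((y : Subgroup.centralizer ({z} : Set G)) : G) = 2 := by
      obtain ⟨c, hc⟩ := isConj_iff.1 hy
      rw [← hc, show c * z * c⁻¹ = MulAut.conj c z from rfl, MulEquiv.orderOf_eq]; exact hset.1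
    have hy2 : y * y = 1 := Subtype.ext (Subtype.ext (by
      show ((y : Subgroup.centralizer ({z} : Set G)) : G) * ((y : Subgroup.centralizer ({z} : Set G)) : G) = 1
      rw [← pow_two, ← ho]; exact pow_orderOf_eq_one _))
    have hyc : y ∉ Subgroup.center Q := fun h => by
      rcases (monster_center hset y).1 h with h1 | h1
      · rw [h1, orderOf_one] at ho; omega
      · exact hne h1
    obtain ⟨v, hv, hvy⟩ := monster_involution hX hcard hiso y hy2 hyc
    rcases hv with hv | hv
    · exact absurd hy (not_conj_minimal hset hiso y hv hvy)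
    · exact ⟨v, hv, hvy⟩
  refine ⟨fun h => key x h.1 h.2, ?_⟩
  rintro ⟨v, hv, hvx⟩
  have hxc := psi_not_center hiso (Or.inr hv) hvx
  refine ⟨?_, fun h1 => hxc ((monster_center hset x).2 (Or.inr h1))⟩
  obtain ⟨c, ⟨huc, huQ⟩, hune⟩ := hset.2.2.2.2
  obtain ⟨u, hu, huψ⟩ := key ⟨_, huQ⟩ (isConj_iff.2 ⟨c, rfl⟩) hune
  obtain ⟨g, hg⟩ := trans_cross hu hv
  obtain ⟨h, hh⟩ := monster_conj hX hiso hxc huψ hvx hg
  exact (isConj_iff.2 ⟨c, rfl⟩ : IsConj z (c * z * c⁻¹)).trans (isConj_iff.2 ⟨h, congrArg Subtype.val hh⟩)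

theorem monster_transitive_fused (hM : IsOfMonsterType z Q) (s t : G)
    (hsQ : ∃ hsc : s ∈ Subgroup.centralizer ({z} : Set G), (⟨s, hsc⟩ : Subgroup.centralizer ({z} : Set G)) ∈ Q)
    (htQ : ∃ htc : t ∈ Subgroup.centralizer ({z} : Set G), (⟨t, htc⟩ : Subgroup.centralizer ({z} : Set G)) ∈ Q)
    (hs : IsConj z s) (ht : IsConj z t) (hs1 : s ≠ z) (ht1 : t ≠ z) :
    ∃ h ∈ Subgroup.centralizer ({z} : Set G), h * s * h⁻¹ = t := by
  obtain ⟨hset, e, ψ, hiso⟩ := hM
  obtain ⟨hsc, hsQ⟩ := hsQ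
  obtain ⟨htc, htQ⟩ := htQ
  obtain ⟨v, hv, hvs⟩ := (monster_fused_iff hset hiso ⟨_, hsQ⟩).1 ⟨hs, hs1⟩
  obtain ⟨w, hw, hwt⟩ := (monster_fused_iff hset hiso ⟨_, htQ⟩).1 ⟨ht, ht1⟩
  obtain ⟨g, hg⟩ := trans_cross hv hw
  obtain ⟨h, hh⟩ := monster_conj hset.2.2.1 hiso (psi_not_center hiso (Or.inr hw) hwt) hvs hwt hg
  exact ⟨h, h.2, congrArg Subtype.val hh⟩

end Cfsg.Lib.Leech
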