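import Mathlib
import Cfsg.Agent.Lib.Leech.MonsterFusion

/-!
The part of a conjugate of `Q` lying in the centralizer of `z`.
-/

set_option autoImplicit false

namespace Cfsg.Lib.Leech

open Cfsg Cfsg.Lib.Golay

variable {G : Type*} [Group G] [Finite G] {z : G} {Q : Subgroup (Subgroup.centralizer ({z} : Set G))} [Q.Normal]
  {e : (Subgroup.centralizer ({z} : Set G)) ⧸ Q ≃* Spor.Co1} {ψ : leechLattice → Q ⧸ Subgroup.center Q}

/-- The elements `a` of the centralizer with `c⁻¹ a c` in `Q`. -/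
def conjPart (Q : Subgroup (Subgroup.centralizer ({z} : Set G))) (c : G) : Subgroup (Subgroup.centralizer ({z} : Set G)) :=
  (Q.map (Subgroup.centralizer ({z} : Set G)).subtype).comap ((MulAut.conj c⁻¹).toMonoidHom.comp (Subgroup.centralizer ({z} : Set G)).subtype)

omit [Finite G] [Q.Normal] in
theorem mem_conjPart {c : G} {a : (Subgroup.centralizer ({z} : Set G))} :
    a ∈ conjPart Q c ↔ ∃ q : Q, ((q : (Subgroup.centralizer ({z} : Set G))) : G) = c⁻¹ * (a : G) * c := by
  simp [conjPart, Subgroup.mem_map]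

theorem exists_z_mem (hset : IsExtraspecialCentralizerSetting z Q 12) :
    ∃ q : Q, ((q : (Subgroup.centralizer ({z} : Set G))) : G) = z := by
  haveI : Nontrivial (Subgroup.center Q) := Finite.one_lt_card_iff_nontrivial.1 (by rw [hset.2.2.1.2]; omega)
  obtain ⟨a, ha⟩ := exists_ne (1 : Subgroup.center Q)
  exact ⟨(a : Q), ((monster_center hset (a : Q)).1 a.2).resolve_left
    (fun e1 => ha (Subtype.ext (Subtype.ext (Subtype.ext e1))))⟩

omit [Finite G] [Q.Normal] in
theorem conjPart_comm {c s : G} (hc : c * z * c⁻¹ = s) {a : (Subgroup.centralizer ({z} : Set G))} (ha : a ∈ conjPart Q c) :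
    (a : G) * s = s * (a : G) := by
  obtain ⟨q, hq⟩ := mem_conjPart.1 ha
  have h1 : ((q : (Subgroup.centralizer ({z} : Set G))) : G) * z = z * ((q : (Subgroup.centralizer ({z} : Set G))) : G) := Subgroup.mem_centralizer_singleton_iff.1 (q : (Subgroup.centralizer ({z} : Set G))).2
  rw [hq] at h1
  have e1 : s = c * z * c⁻¹ := hc.symm
  rw [e1]
  calc (a : G) * (c * z * c⁻¹) = c * (c⁻¹ * (a : G) * c * z) * c⁻¹ := by group
    _ = c * (z * (c⁻¹ * (a : G) * c)) * c⁻¹ := by rw [h1]
    _ = c * z * c⁻¹ * (a : G) := by group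

omit [Finite G] in
theorem conj_mem_centralizer {c s : G} (hc : c * z * c⁻¹ = s) {a : G} (ha : a * s = s * a) :
    c⁻¹ * a * c ∈ Subgroup.centralizer ({z} : Set G) := by
  rw [Subgroup.mem_centralizer_singleton_iff]
  have e1 : z = c⁻¹ * s * c := by rw [← hc]; group
  rw [e1]
  calc c⁻¹ * a * c * (c⁻¹ * s * c) = c⁻¹ * (a * s) * c := by group
    _ = c⁻¹ * (s * a) * c := by rw [ha]
    _ = c⁻¹ * s * c * (c⁻¹ * a * c) := by group

omit [Finite G] in
theorem conjPart_normal {c s : G} (hc : c * z * c⁻¹ = s) {d : (Subgroup.centralizer ({z} : Set G))} (hd : (d : G) * s = s * (d : G))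
    {a : (Subgroup.centralizer ({z} : Set G))} (ha : a ∈ conjPart Q c) : d * a * d⁻¹ ∈ conjPart Q c := by
  obtain ⟨q, hq⟩ := mem_conjPart.1 ha
  refine mem_conjPart.2 ⟨⟨⟨_, conj_mem_centralizer hc hd⟩ * (q : (Subgroup.centralizer ({z} : Set G))) * ⟨_, conj_mem_centralizer hc hd⟩⁻¹,
    (inferInstance : Q.Normal).conj_mem (q : (Subgroup.centralizer ({z} : Set G))) q.2 _⟩, ?_⟩
  show c⁻¹ * (d : G) * c * ((q : (Subgroup.centralizer ({z} : Set G))) : G) * (c⁻¹ * (d : G) * c)⁻¹ = c⁻¹ * ((d * a * d⁻¹ : (Subgroup.centralizer ({z} : Set G))) : G) * c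
  rw [hq]
  simp only [Subgroup.coe_mul, Subgroup.coe_inv]
  group

/-- A commutator of an element of the conjugate part with an element of `Q` commuting with `s`. -/
theorem conjPart_commutator {c s : G} (hc : c * z * c⁻¹ = s) {r : (Subgroup.centralizer ({z} : Set G))} (hr : r ∈ conjPart Q c) (q : Q)
    (hq : ((q : (Subgroup.centralizer ({z} : Set G))) : G) * s = s * ((q : (Subgroup.centralizer ({z} : Set G))) : G)) :
    (((⟨r * (q : (Subgroup.centralizer ({z} : Set G))) * r⁻¹, (inferInstance : Q.Normal).conj_mem (q : (Subgroup.centralizer ({z} : Set G))) q.2 r⟩ : Q) * q⁻¹ : Q) : (Subgroup.centralizer ({z} : Set G)))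
      ∈ conjPart Q c := by
  have e1 : (((⟨r * (q : (Subgroup.centralizer ({z} : Set G))) * r⁻¹, (inferInstance : Q.Normal).conj_mem (q : (Subgroup.centralizer ({z} : Set G))) q.2 r⟩ : Q) * q⁻¹ : Q) : (Subgroup.centralizer ({z} : Set G)))
      = r * ((q : (Subgroup.centralizer ({z} : Set G))) * r⁻¹ * (q : (Subgroup.centralizer ({z} : Set G)))⁻¹) := by
    simp only [Subgroup.coe_mul, Subgroup.coe_inv]; group
  rw [e1]
  exact mul_mem hr (conjPart_normal hc hq (inv_mem hr))

theorem sq_mem_center (hiso : IsLeechModTwoIso Q e ψ) (q : Q) : q * q ∈ Subgroup.center Q := by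
  obtain ⟨a, ha⟩ := hiso.2.1 (QuotientGroup.mk q)
  rw [← QuotientGroup.eq_one_iff, QuotientGroup.mk_mul, ← ha, ← hiso.1]
  exact (hiso.2.2.1 _).2 ⟨a, rfl⟩

theorem conjPart_sq (hset : IsExtraspecialCentralizerSetting z Q 12) (hiso : IsLeechModTwoIso Q e ψ) {c s : G}
    (hc : c * z * c⁻¹ = s) (hsne : s ≠ z) (r : Q) (hr : (r : (Subgroup.centralizer ({z} : Set G))) ∈ conjPart Q c) : r * r = 1 := by
  obtain ⟨q, hq⟩ := mem_conjPart.1 hr
  have hzne : z ≠ 1 := fun e1 => by have := hset.1; rw [e1, orderOf_one] at this; omega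
  have h1 := (monster_center hset _).1 (sq_mem_center hiso r)
  have h2 := (monster_center hset _).1 (sq_mem_center hiso q)
  have e2 : (((q * q : Q) : (Subgroup.centralizer ({z} : Set G))) : G) = c⁻¹ * (((r * r : Q) : (Subgroup.centralizer ({z} : Set G))) : G) * c := by
    simp only [Subgroup.coe_mul, hq]; group
  rcases h1 with h1 | h1
  · exact Subtype.ext (Subtype.ext h1)
  · exfalso
    rw [h1] at e2
    rw [e2] at h2
    rcases h2 with h2 | h2
    · exact hzne (by calc z = c * (c⁻¹ * z * c) * c⁻¹ := by group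
        _ = 1 := by rw [h2]; group)
    · refine hsne ?_
      rw [← hc]
      calc c * z * c⁻¹ = c * (c⁻¹ * z * c) * c⁻¹ := by rw [h2]
        _ = z := by group

theorem conjPart_card (hset : IsExtraspecialCentralizerSetting z Q 12) (hiso : IsLeechModTwoIso Q e ψ) {c s : G}
    (hc : c * z * c⁻¹ = s) (hs : s ∈ Subgroup.centralizer ({z} : Set G)) :
    2 ^ 12 ≤ Nat.card (conjPart Q c) := by
  have hX := hset.2.2.1
  have hcard : Nat.card Q = 2 ^ 25 := hset.2.2.2.1
  have hcs : ∀ a : G, a * s = s * a → c⁻¹ * a * c ∈ Subgroup.centralizer ({z} : Set G) :=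
    fun a ha => conj_mem_centralizer hc ha
  -- but `z` centralizes many elements of the conjugate of `Q`
  have hzc : z * s = s * z := (Subgroup.mem_centralizer_singleton_iff.1 hs).symm
  set z' : (Subgroup.centralizer ({z} : Set G)) := ⟨c⁻¹ * z * c, hcs z hzc⟩ with hz'
  let φ : Q →* Q :=
    { toFun := fun q => ⟨z' * q * z'⁻¹, (inferInstance : Q.Normal).conj_mem (q : (Subgroup.centralizer ({z} : Set G))) q.2 z'⟩
      map_one' := Subtype.ext (by simp)
      map_mul' := fun a b => Subtype.ext (by simp [mul_assoc]) }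
  have hz2 : z * z = 1 := by rw [← pow_two, ← hset.1]; exact pow_orderOf_eq_one z
  have hz'2 : z' * z' = 1 := Subtype.ext (by
    show c⁻¹ * z * c * (c⁻¹ * z * c) = 1
    calc c⁻¹ * z * c * (c⁻¹ * z * c) = c⁻¹ * (z * z) * c := by group
      _ = 1 := by rw [hz2]; group)
  have hbig := card_fixed_involution hcard hX.2 (fun a => by
      obtain ⟨q, rfl⟩ := QuotientGroup.mk_surjective a
      rw [← QuotientGroup.mk_mul]; exact (QuotientGroup.eq_one_iff _).2 (sq_mem_center hiso q)) φ
    (fun a => Subtype.ext (by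
      show z' * (z' * (a : (Subgroup.centralizer ({z} : Set G))) * z'⁻¹) * z'⁻¹ = a
      calc z' * (z' * (a : (Subgroup.centralizer ({z} : Set G))) * z'⁻¹) * z'⁻¹ = (z' * z') * (a : (Subgroup.centralizer ({z} : Set G))) * (z' * z')⁻¹ := by group
        _ = a := by rw [hz'2]; group))
    (fun a ha => by
      rw [Subgroup.mem_center_iff] at ha ⊢
      intro b
      refine Subtype.ext ?_
      show (b : (Subgroup.centralizer ({z} : Set G))) * (z' * (a : (Subgroup.centralizer ({z} : Set G))) * z'⁻¹) = z' * (a : (Subgroup.centralizer ({z} : Set G))) * z'⁻¹ * b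
      have := congrArg (fun t : Q => (t : (Subgroup.centralizer ({z} : Set G))))
        (ha ⟨z'⁻¹ * b * z'⁻¹⁻¹, (inferInstance : Q.Normal).conj_mem (b : (Subgroup.centralizer ({z} : Set G))) b.2 z'⁻¹⟩)
      simp only [Subgroup.coe_mul] at this
      calc (b : (Subgroup.centralizer ({z} : Set G))) * (z' * (a : (Subgroup.centralizer ({z} : Set G))) * z'⁻¹) = z' * (z'⁻¹ * (b : (Subgroup.centralizer ({z} : Set G))) * z'⁻¹⁻¹ * a) * z'⁻¹ := by group
        _ = z' * ((a : (Subgroup.centralizer ({z} : Set G))) * (z'⁻¹ * (b : (Subgroup.centralizer ({z} : Set G))) * z'⁻¹⁻¹)) * z'⁻¹ := by rw [this]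
        _ = z' * (a : (Subgroup.centralizer ({z} : Set G))) * z'⁻¹ * b := by group)
  have hmemC : ∀ a : {a : Q // φ a = a}, c * ((a.1 : (Subgroup.centralizer ({z} : Set G))) : G) * c⁻¹ ∈ (Subgroup.centralizer ({z} : Set G)) := by
    intro a
    rw [Subgroup.mem_centralizer_singleton_iff]
    have h1 : z' * (a.1 : (Subgroup.centralizer ({z} : Set G))) * z'⁻¹ = a.1 := congrArg Subtype.val a.2
    have h2 : c⁻¹ * z * c * ((a.1 : (Subgroup.centralizer ({z} : Set G))) : G) * (c⁻¹ * z * c)⁻¹ = ((a.1 : (Subgroup.centralizer ({z} : Set G))) : G) :=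
      congrArg (fun t : (Subgroup.centralizer ({z} : Set G)) => (t : G)) h1
    calc c * ((a.1 : (Subgroup.centralizer ({z} : Set G))) : G) * c⁻¹ * z
        = c * (c⁻¹ * z * c * ((a.1 : (Subgroup.centralizer ({z} : Set G))) : G) * (c⁻¹ * z * c)⁻¹) * c⁻¹ * z := by rw [h2]
      _ = z * (c * ((a.1 : (Subgroup.centralizer ({z} : Set G))) : G) * c⁻¹) := by group
  have hinj : Nat.card {a : Q // φ a = a} ≤ Nat.card (conjPart Q c) := by
    refine Nat.card_le_card_of_injective
      (fun a => (⟨⟨_, hmemC a⟩, mem_conjPart.2 ⟨a.1, by group⟩⟩ : conjPart Q c)) ?_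
    intro a b hab
    have : c * ((a.1 : (Subgroup.centralizer ({z} : Set G))) : G) * c⁻¹ = c * ((b.1 : (Subgroup.centralizer ({z} : Set G))) : G) * c⁻¹ := congrArg (fun t : conjPart Q c => ((t : (Subgroup.centralizer ({z} : Set G))) : G)) hab
    exact Subtype.ext (Subtype.ext (Subtype.ext (mul_left_cancel (mul_right_cancel this))))
  omega

end Cfsg.Lib.Leech
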