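import Mathlib
import Cfsg.Agent.Lib.Leech.MonsterConj
import Cfsg.Agent.Lib.Leech.CrossModule

/-!
For a conjugate `s ≠ z` of `z` in `Q` the two extraspecial groups meet in a subgroup of order `2^13`.
-/

set_option autoImplicit false

namespace Cfsg.Lib.Leech

open Cfsg Cfsg.Lib.Golay

variable {G : Type*} [Group G] [Finite G] {z : G} {Q : Subgroup (Subgroup.centralizer ({z} : Set G))} [Q.Normal]
  {e : (Subgroup.centralizer ({z} : Set G)) ⧸ Q ≃* Spor.Co1} {ψ : leechLattice → Q ⧸ Subgroup.center Q}

omit [Finite G] in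
/-- Moving the identification by a lattice automorphism. -/
theorem iso_twist (hiso : IsLeechModTwoIso Q e ψ) (k : Co0) :
    IsLeechModTwoIso Q (e.trans (MulAut.conj (QuotientGroup.mk k : Spor.Co1)⁻¹)) (fun v => ψ (k • v)) := by
  obtain ⟨hadd, hsurj, hker, heq⟩ := hiso
  refine ⟨fun v w => ?_, fun q => ?_, fun v => ?_, fun h g hg v q hq => ?_⟩
  · show ψ (k • (v + w)) = ψ (k • v) * ψ (k • w)
    rw [co0_add, hadd]
  · obtain ⟨v, hv⟩ := hsurj q
    exact ⟨k⁻¹ • v, by simp only [smul_inv_smul]; exact hv⟩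
  · rw [hker (k • v)]
    constructor
    · rintro ⟨w, hw⟩
      exact ⟨k⁻¹ • w, by rw [← co0_add, ← hw, inv_smul_smul]⟩
    · rintro ⟨w, hw⟩
      exact ⟨k • w, by rw [hw, co0_add]⟩
  · have hg' : (QuotientGroup.mk (k * g * k⁻¹) : Spor.Co1) = e (QuotientGroup.mk h) := by
      rw [QuotientGroup.mk_mul, QuotientGroup.mk_mul, QuotientGroup.mk_inv, hg, MulEquiv.trans_apply,
        MulAut.conj_apply]
      group
    have := heq h (k * g * k⁻¹) hg' (k • v) q hq
    rw [mul_smul, mul_smul, inv_smul_smul] at this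
    exact this

theorem monster_square_even (hset : IsExtraspecialCentralizerSetting z Q 12) (hiso : IsLeechModTwoIso Q e ψ) {x : Q}
    {v : leechLattice} (hv : sqNorm (v : GolayPt → ℤ) % 32 = 0) (h : ψ v = QuotientGroup.mk x) : x * x = 1 := by
  obtain ⟨y, hvy, hy⟩ := norm_cases v
  rw [psi_congr hiso hvy] at h
  rcases hy with hy | hy | hy | hy
  · rw [show y = 0 from Subtype.ext hy, psi_zero hiso] at h
    have hx := (monster_center hset x).1 ((QuotientGroup.eq_one_iff x).1 h.symm)
    refine Subtype.ext (Subtype.ext ?_)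
    show ((x : Subgroup.centralizer ({z} : Set G)) : G) * ((x : Subgroup.centralizer ({z} : Set G)) : G) = 1
    rcases hx with e1 | e1 <;> rw [e1]
    · rw [one_mul]
    · rw [← pow_two, ← hset.1]; exact pow_orderOf_eq_one z
  · exact monster_square hset.2.2.1 hiso (Or.inl hy) h
  · exfalso
    have h2 := norm_mod_two v y hvy
    rw [ZMod.intCast_eq_intCast_iff', hy] at h2
    have := norm_dvd v.2
    omega
  · exact monster_square hset.2.2.1 hiso (Or.inr hy) h

theorem cross_wit : CheckVec (twoVec 5279) ∧ sqNorm (twoVec 5279) = 32 ∧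
    dotInt ((plusVec (pt 0) (pt 5) : leechLattice) : GolayPt → ℤ) (twoVec 5279) = 8 ∧
    ∀ i : GolayPt, twoVec 5279 i % 2 = 0 := by decide +kernel

theorem frameGen_four (k : Fin 12) : IsFour (frameGen k) := fun i => by rw [frameGen_apply]; omega

theorem monster_inter_frame (hset : IsExtraspecialCentralizerSetting z Q 12) (hiso : IsLeechModTwoIso Q e ψ)
    (x : Q) (hvx : ψ (eight none) = QuotientGroup.mk x) (c : G)
    (hc : c * z * c⁻¹ = ((x : Subgroup.centralizer ({z} : Set G)) : G)) :
    Nat.card ((conjPart Q c).subgroupOf Q) = 2 ^ 13 ∧ (∀ a ∈ Subgroup.center Q, a ∈ (conjPart Q c).subgroupOf Q) ∧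
      ∀ y : leechLattice, IsFour y → ∃ r : Q,
        (r : Subgroup.centralizer ({z} : Set G)) ∈ conjPart Q c ∧ ψ y = QuotientGroup.mk r := by
  have hX := hset.2.2.1
  have hcard : Nat.card Q = 2 ^ 25 := hset.2.2.2.1
  have hv64 := eight_norm none
  have hxc := psi_not_center hiso (Or.inr hv64) hvx
  have hsne : ((x : Subgroup.centralizer ({z} : Set G)) : G) ≠ z :=
    fun e1 => hxc ((monster_center hset x).2 (Or.inr e1))
  obtain ⟨zq, hzq⟩ := exists_z_mem hset
  have hxR : (x : Subgroup.centralizer ({z} : Set G)) ∈ conjPart Q c :=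
    mem_conjPart.2 ⟨zq, by rw [hzq, ← hc]; group⟩
  let L : AddSubgroup leechLattice :=
    { carrier := {w | ∃ r : Q, (r : Subgroup.centralizer ({z} : Set G)) ∈ conjPart Q c ∧ ψ w = QuotientGroup.mk r}
      zero_mem' := ⟨1, one_mem _, by rw [psi_zero hiso]; rfl⟩
      add_mem' := by
        rintro a b ⟨r, hr, ha⟩ ⟨r', hr', hb⟩
        exact ⟨r * r', mul_mem hr hr', by rw [hiso.1, ha, hb, QuotientGroup.mk_mul]⟩
      neg_mem' := by
        rintro a ⟨r, hr, ha⟩
        exact ⟨r, hr, by rw [psi_congr hiso (cls_neg_self a), ha]⟩ }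
  have hL : FourInv L := by
    refine ⟨fun u => ⟨1, one_mem _, by rw [(hiso.2.2.1 _).2 ⟨u, rfl⟩]; rfl⟩, ⟨x, hxR, hvx⟩, ?_, ?_⟩
    · rintro g hg w ⟨r, hr, hw⟩
      obtain ⟨h, hh, he⟩ := monster_conj_image hX hiso hxc hvx
        (show ψ (g • eight none) = QuotientGroup.mk x by rw [psi_congr hiso hg, hvx]) rfl
      have hhs : (h : G) * ((x : Subgroup.centralizer ({z} : Set G)) : G) =
          ((x : Subgroup.centralizer ({z} : Set G)) : G) * (h : G) := by
        have := congrArg (fun a : Subgroup.centralizer ({z} : Set G) => (a : G)) hh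
        simp only [Subgroup.coe_mul, Subgroup.coe_inv] at this
        calc (h : G) * ((x : Subgroup.centralizer ({z} : Set G)) : G)
            = ((h : G) * ((x : Subgroup.centralizer ({z} : Set G)) : G) * (h : G)⁻¹) * h := by group
          _ = ((x : Subgroup.centralizer ({z} : Set G)) : G) * h := by rw [this]
      exact ⟨_, conjPart_normal hc hhs hr, hiso.2.2.2 h g he.symm w r hw⟩
    · rintro w ⟨r, hr, hw⟩
      exact monster_even hX hcard hiso (conjPart_sq hset hiso hc hsne r hr) hw
  -- elements over even classes orthogonal to the cross commute with `x`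
  have hperp : ∀ (y : leechLattice) (q : Q), ψ y = QuotientGroup.mk q → sqNorm (y : GolayPt → ℤ) = 32 →
      (∀ i, (y : GolayPt → ℤ) i % 2 = 0) → ((q : Subgroup.centralizer ({z} : Set G)) : G) *
        ((x : Subgroup.centralizer ({z} : Set G)) : G) =
          ((x : Subgroup.centralizer ({z} : Set G)) : G) * ((q : Subgroup.centralizer ({z} : Set G)) : G) := by
    intro y q hq hy hev
    have h1 := monster_square hX hiso (Or.inl hy) hq
    have h2 := monster_square hX hiso (Or.inr hv64) hvx
    have h3 := monster_square_even hset hiso (x := x * q) (v := eight none + y) (by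
      rw [norm_sum, hy, eight_norm,
        show dotInt ((eight none : leechLattice) : GolayPt → ℤ) y = 8 * (y : GolayPt → ℤ) none by
          simp [dotInt, eight_apply]]
      have := hev none
      omega) (by rw [hiso.1, hvx, hq, QuotientGroup.mk_mul])
    have i1 := inv_eq_of_mul_eq_one_right h1
    have i2 := inv_eq_of_mul_eq_one_right h2
    have i3 := inv_eq_of_mul_eq_one_right h3
    rw [mul_inv_rev, i1, i2] at i3
    exact congrArg (fun a : Q => ((a : Subgroup.centralizer ({z} : Set G)) : G)) i3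
  rcases hL.cases with hsmall | hbig
  · exfalso
    have step2 : ∀ r ∈ conjPart Q c, r ∈ Q := by
      intro r hr
      obtain ⟨g, hg⟩ := QuotientGroup.mk_surjective (e (QuotientGroup.mk r))
      have hrs := conjPart_comm hc hr
      have hgv : cls (g • eight none) = cls (eight none) := by
        refine (psi_cls_iff hiso).1 ?_
        rw [hiso.2.2.2 r g hg (eight none) x hvx, hvx]
        congr 1
        refine Subtype.ext (Subtype.ext ?_)
        show (r : G) * ((x : Subgroup.centralizer ({z} : Set G)) : G) * (r : G)⁻¹ = _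
        rw [hrs]; group
      have hcen : g ∈ Subgroup.center Co0 := by
        refine trivial_of_cross hgv fun y hy hev => ?_
        obtain ⟨q, hq⟩ := QuotientGroup.mk_surjective (ψ y)
        have hmem : g • y + -y ∈ L := by
          refine ⟨_, conjPart_commutator hc hr q (hperp y q hq.symm hy hev), ?_⟩
          rw [hiso.1, hiso.2.2.2 r g hg y q hq.symm, psi_congr hiso (cls_neg_self y), QuotientGroup.mk_mul,
            QuotientGroup.mk_inv, hq]
          congr 1
          obtain ⟨a, ha⟩ := hiso.2.1 (ψ y)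
          refine (inv_eq_of_mul_eq_one_right ?_).symm
          rw [← hiso.1]; exact (hiso.2.2.1 _).2 ⟨y, rfl⟩
        rcases hsmall _ hmem with h | h
        · left
          have := cls_add h (rfl : cls y = cls y)
          simpa using this
        · right
          have := cls_add h (rfl : cls y = cls y)
          rw [add_comm (eight none) y] at this
          simpa using this
      rw [← QuotientGroup.eq_one_iff, ← MulEquiv.map_eq_one_iff e, ← hg, QuotientGroup.eq_one_iff]
      exact hcen
    have hsmallR : Nat.card (conjPart Q c) ≤ 4 := by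
      classical
      have hex : ∀ r : conjPart Q c, ∃ p : Subgroup.center Q × Bool, (r : Subgroup.centralizer ({z} : Set G)) =
          ((p.1 : Q) : Subgroup.centralizer ({z} : Set G)) * (if p.2 then (x : Subgroup.centralizer ({z} : Set G))
            else 1) := by
        intro r
        have hrQ := step2 r r.2
        obtain ⟨w, hw⟩ := hiso.2.1 (QuotientGroup.mk ⟨_, hrQ⟩)
        rcases hsmall w ⟨_, r.2, hw⟩ with h | h <;> rw [psi_congr hiso h] at hw
        · rw [psi_zero hiso] at hw
          exact ⟨(⟨_, (QuotientGroup.eq_one_iff _).1 hw.symm⟩, false), by simp⟩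
        · rw [hvx] at hw
          refine ⟨(⟨⟨(r : Subgroup.centralizer ({z} : Set G)), hrQ⟩ * x⁻¹, ?_⟩, true), by simp⟩
          rw [← QuotientGroup.eq_one_iff, QuotientGroup.mk_mul, QuotientGroup.mk_inv, ← hw, mul_inv_cancel]
      choose p hp using hex
      have hinj : Function.Injective p := fun a b hab => Subtype.ext (by rw [hp a, hp b, hab])
      have := Nat.card_le_card_of_injective p hinj
      rw [Nat.card_prod, hX.2] at this
      simpa using this
    have := conjPart_card hset hiso hc (x : Subgroup.centralizer ({z} : Set G)).2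
    omega
  -- the frame classes
  set RQ := (conjPart Q c).subgroupOf Q with hRQ
  obtain ⟨w1, w2, w3, w4⟩ := cross_wit
  let y : leechLattice := ⟨twoVec 5279, mem_of_check w1⟩
  have hpair : plusVec (pt 0) (pt 5) ∈ L := hbig _ fun i => by
    simp only [plusVec]; split <;> split <;> norm_num
  obtain ⟨r, hr, hrw⟩ := hpair
  obtain ⟨q, hq⟩ := QuotientGroup.mk_surjective (ψ y)
  have hqr : r * q ≠ q * r := by
    intro hcomm
    have h1 := conjPart_sq hset hiso hc hsne r hr
    have h2 := monster_square hX hiso (Or.inl w2) (v := y) hq.symm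
    have h3 : (r * q) * (r * q) = 1 := by
      calc (r * q) * (r * q) = r * (q * r) * q := by group
        _ = r * (r * q) * q := by rw [hcomm]
        _ = (r * r) * (q * q) := by group
        _ = 1 := by rw [h1, h2, one_mul]
    have := monster_even hX hcard hiso h3 (v := plusVec (pt 0) (pt 5) + y)
      (by rw [hiso.1, hrw, ← hq, QuotientGroup.mk_mul])
    rw [norm_sum, show sqNorm (y : GolayPt → ℤ) = 32 from w2,
      show dotInt ((plusVec (pt 0) (pt 5) : leechLattice) : GolayPt → ℤ) (y : GolayPt → ℤ) = 8 from w3,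
      plusVec_norm _ _ (by decide)] at this
    norm_num at this
  have hcomQ : ∀ a b : Q, a * b * a⁻¹ * b⁻¹ ∈ Subgroup.center Q := by
    intro a b
    obtain ⟨u, hu⟩ := hiso.2.1 (QuotientGroup.mk a)
    obtain ⟨u', hu'⟩ := hiso.2.1 (QuotientGroup.mk b)
    rw [← QuotientGroup.eq_one_iff, QuotientGroup.mk_mul, QuotientGroup.mk_mul, QuotientGroup.mk_mul,
      QuotientGroup.mk_inv, QuotientGroup.mk_inv, ← hu, ← hu', ← hiso.1 u u', add_comm, hiso.1]
    group
  have hzmem : ∀ a : Q, a ∈ Subgroup.center Q → a ∈ RQ := by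
    have hcm : r * q * r⁻¹ * q⁻¹ ∈ RQ := by
      rw [hRQ, Subgroup.mem_subgroupOf]
      exact conjPart_commutator hc hr q (hperp y q hq.symm w2 w4)
    have hne : r * q * r⁻¹ * q⁻¹ ≠ 1 := fun e1 => hqr (by
      calc r * q = r * q * r⁻¹ * q⁻¹ * (q * r) := by group
        _ = q * r := by rw [e1, one_mul])
    intro a ha
    by_cases ha1 : a = 1
    · rw [ha1]; exact one_mem _
    · have h1 := ((monster_center hset a).1 ha).resolve_left (fun e1 => ha1 (Subtype.ext (Subtype.ext e1)))
      have h2 := ((monster_center hset _).1 (hcomQ r q)).resolve_left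
        (fun e1 => hne (Subtype.ext (Subtype.ext e1)))
      rw [show a = r * q * r⁻¹ * q⁻¹ from Subtype.ext (Subtype.ext (h1.trans h2.symm))]
      exact hcm
  let Φ : (Fin 12 → ZMod 2) → Q ⧸ Subgroup.center Q := fun b => ψ (∑ i, (b i).val • frameGen i)
  have hΦinj : Function.Injective Φ := fun a b h => frameHom_injective ((psi_cls_iff hiso).1 h)
  have hrange : Set.range Φ = (RQ.map (QuotientGroup.mk' (Subgroup.center Q)) : Set (Q ⧸ Subgroup.center Q)) := by
    ext t
    constructor
    · rintro ⟨b, rfl⟩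
      have hm : (∑ i, (b i).val • frameGen i) ∈ L :=
        sum_mem fun i _ => nsmul_mem (hbig _ (frameGen_four i)) _
      obtain ⟨r', hr', hw'⟩ := hm
      exact ⟨r', hr', hw'.symm⟩
    · rintro ⟨r', hr', rfl⟩
      obtain ⟨w, hw⟩ := hiso.2.1 (QuotientGroup.mk r')
      obtain ⟨w', hwc, hw4, -⟩ := hL.exists_four (w := w) ⟨r', hr', hw⟩
      obtain ⟨b, hb⟩ := frame_class hw4
      exact ⟨b, by rw [QuotientGroup.mk'_apply, ← hw, ← psi_congr hiso hwc]; exact psi_congr hiso hb⟩
  have hmap : Nat.card (RQ.map (QuotientGroup.mk' (Subgroup.center Q))) = 4096 := by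
    rw [← SetLike.coe_sort_coe, ← hrange, ← Nat.card_congr (Equiv.ofInjective Φ hΦinj), Nat.card_pi]
    simp
  have hpre : RQ = (RQ.map (QuotientGroup.mk' (Subgroup.center Q))).comap
      (QuotientGroup.mk' (Subgroup.center Q)) := by
    rw [Subgroup.comap_map_eq, QuotientGroup.ker_mk', sup_eq_left.2 hzmem]
  have h1 := RQ.card_mul_index
  have h2 := (RQ.map (QuotientGroup.mk' (Subgroup.center Q))).card_mul_index
  have h4 := (Subgroup.center Q).card_mul_index
  rw [show (Subgroup.center Q).index = Nat.card (Q ⧸ Subgroup.center Q) from rfl, hX.2] at h4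
  have h3 : RQ.index = (RQ.map (QuotientGroup.mk' (Subgroup.center Q))).index := by
    conv_lhs => rw [hpre]
    exact Subgroup.index_comap_of_surjective _ (QuotientGroup.mk'_surjective _)
  rw [hmap] at h2
  rw [h3, hcard] at h1
  rw [hcard] at h4
  have h5 : (RQ.map (QuotientGroup.mk' (Subgroup.center Q))).index = 4096 := by omega
  rw [h5] at h1
  exact ⟨by omega, hzmem, fun y hy => hbig y hy⟩

/-- `Q` and a conjugate meet in a subgroup of order `2^13`. -/
theorem monster_inter_card (hM : IsOfMonsterType z Q) (s : G)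
    (hsQ : ∃ hsc : s ∈ Subgroup.centralizer ({z} : Set G), (⟨s, hsc⟩ : Subgroup.centralizer ({z} : Set G)) ∈ Q)
    (hs1 : s ≠ z) (g : G) (hg : g * z * g⁻¹ = s) :
    Nat.card ↥((Q.map (Subgroup.centralizer ({z} : Set G)).subtype) ⊓
      (Q.map (Subgroup.centralizer ({z} : Set G)).subtype).map (MulAut.conj g).toMonoidHom) = 2 ^ 13 := by
  obtain ⟨hset, e, ψ, hiso⟩ := hM
  obtain ⟨hsc, hsQ⟩ := hsQ
  obtain ⟨v, hv, hvs⟩ := (monster_fused_iff hset hiso ⟨_, hsQ⟩).1 ⟨isConj_iff.2 ⟨g, hg⟩, hs1⟩
  obtain ⟨k, hk⟩ := trans_cross (eight_norm none) hv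
  have h := monster_inter_frame hset (iso_twist hiso k) ⟨_, hsQ⟩ (by show ψ (k • eight none) = _; rw [hk, hvs]) g hg |>.1
  rw [← h]
  refine Nat.card_congr ?_
  have hmem : ∀ a : G, a ∈ (Q.map (Subgroup.centralizer ({z} : Set G)).subtype) ⊓
      (Q.map (Subgroup.centralizer ({z} : Set G)).subtype).map (MulAut.conj g).toMonoidHom ↔
        ∃ q : Q, ((q : Subgroup.centralizer ({z} : Set G)) : G) = a ∧
          q ∈ (conjPart Q g).subgroupOf Q := by
    intro a
    rw [Subgroup.mem_inf, Subgroup.mem_map, Subgroup.mem_map]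
    constructor
    · rintro ⟨⟨q, hq, rfl⟩, b, hb, hba⟩
      obtain ⟨q', hq', rfl⟩ := Subgroup.mem_map.1 hb
      refine ⟨⟨q, hq⟩, rfl, mem_conjPart.2 ⟨⟨q', hq'⟩, ?_⟩⟩
      have h' : g * ((q' : Subgroup.centralizer ({z} : Set G)) : G) * g⁻¹ =
          ((q : Subgroup.centralizer ({z} : Set G)) : G) := hba
      show ((q' : Subgroup.centralizer ({z} : Set G)) : G) = g⁻¹ * ((q : Subgroup.centralizer ({z} : Set G)) : G) * g
      rw [← h']; group
    · rintro ⟨q, rfl, hq⟩
      refine ⟨⟨_, q.2, rfl⟩, ?_⟩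
      obtain ⟨q', hq'⟩ := mem_conjPart.1 (Subgroup.mem_subgroupOf.1 hq)
      refine ⟨_, Subgroup.mem_map_of_mem _ q'.2, ?_⟩
      show g * ((q' : Subgroup.centralizer ({z} : Set G)) : G) * g⁻¹ = _
      rw [hq']; group
  exact (Equiv.ofBijective
    (fun q : (conjPart Q g).subgroupOf Q =>
      (⟨(((q : Q) : Subgroup.centralizer ({z} : Set G)) : G), (hmem _).2 ⟨q, rfl, q.2⟩⟩ :
        ↥((Q.map (Subgroup.centralizer ({z} : Set G)).subtype) ⊓
          (Q.map (Subgroup.centralizer ({z} : Set G)).subtype).map (MulAut.conj g).toMonoidHom)))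
    ⟨fun a b hab => by
      have h' := congrArg Subtype.val hab
      simp only at h'
      exact Subtype.ext (Subtype.ext (Subtype.ext h')),
      fun a => by obtain ⟨q, hq, hq'⟩ := (hmem _).1 a.2; exact ⟨⟨q, hq'⟩, Subtype.ext hq⟩⟩).symm

end Cfsg.Lib.Leech
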