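import Mathlib
import Cfsg.Agent.Lib.Leech.MonsterCross

/-!
The image of the centralizer of `s` in `C/Q` is `2^11` extended by `M24`, split.
-/

set_option autoImplicit false

namespace Cfsg.Lib.Leech

open Cfsg Cfsg.Lib.Golay

local notation "CC" => supports (golayCode : Set (GolayPt → ZMod 2))

/-- Permutations of the code inside the automorphism group. -/
noncomputable def permHom : M24 →* Co0 where
  toFun σ := permElt σ σ.2
  map_one' := co0_ext fun v => funext fun i => by simp [permElt_apply]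
  map_mul' a b := co0_ext fun v => funext fun i => by
    rw [mul_smul, permElt_apply, permElt_apply, permElt_apply, Subgroup.coe_mul, mul_inv_rev,
      Equiv.Perm.mul_apply]

theorem permHom_center_trivial {σ : M24} (h : permHom σ ∈ Subgroup.center Co0) : σ = 1 := by
  rcases center_le h with e | e
  · refine Subtype.ext (Equiv.ext fun a => ?_)
    have h1 := congrArg (fun g : Co0 => ((g • eight a : leechLattice) : GolayPt → ℤ) ((σ : Equiv.Perm GolayPt) a)) e
    simp [permHom, permElt_eight, eight_apply] at h1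
    exact h1
  · exfalso
    have h1 := congrArg
      (fun g : Co0 => ((g • eight none : leechLattice) : GolayPt → ℤ) ((σ : Equiv.Perm GolayPt) none)) e
    simp [permHom, permElt_eight, negElt_apply, eight_apply] at h1
    split at h1 <;> omega

/-- The sign changes inside the quotient by the centre. -/
def flipImages : Set Spor.Co1 := Set.range fun c : CC => (QuotientGroup.mk (flipElt c.1 c.2) : Spor.Co1)

theorem flipImages_card : flipImages.ncard ≤ 2048 := by
  classical
  haveI : Fintype CC := Fintype.ofFinite _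
  have hc : Fintype.card CC = 4096 := by rw [← Nat.card_eq_fintype_card, card_CC]
  let f : CC → Spor.Co1 := fun c => (QuotientGroup.mk (flipElt c.1 c.2) : Spor.Co1)
  have hset : flipImages = ↑(Finset.univ.image f) := by
    rw [Finset.coe_image, Finset.coe_univ, Set.image_univ]; rfl
  rw [hset, Set.ncard_coe_finset]
  have hfib : ∀ q ∈ Finset.univ.image f, 2 ≤ (Finset.univ.filter fun c => f c = q).card := by
    intro q hq
    obtain ⟨c, -, rfl⟩ := Finset.mem_image.1 hq
    let c' : CC := ⟨_, symmDiff_mem_supports univ_mem c.2⟩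
    have hne : c ≠ c' := fun e => by
      have h : (none : GolayPt) ∈ (c : Finset GolayPt) ↔ none ∈ (c' : Finset GolayPt) := by rw [← e]
      simp [c', Finset.mem_symmDiff] at h
    have e : flipElt c'.1 c'.2 = negElt * flipElt c.1 c.2 := co0_ext fun v => funext fun i => by
      rw [flipElt_apply, mul_smul, negElt_apply, AddSubgroup.coe_neg, Pi.neg_apply, flipElt_apply]
      by_cases hi : i ∈ (c : Finset GolayPt) <;> simp [c', Finset.mem_symmDiff, hi]
    have hf : f c' = f c := by
      show (QuotientGroup.mk _ : Spor.Co1) = QuotientGroup.mk _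
      rw [e, QuotientGroup.mk_mul, (QuotientGroup.eq_one_iff negElt).2
        (Subgroup.mem_center_iff.2 fun h => (negElt_central h).symm), one_mul]
    calc 2 = ({c, c'} : Finset CC).card := (Finset.card_pair hne).symm
      _ ≤ _ := Finset.card_le_card (fun a ha => by
        simp only [Finset.mem_insert, Finset.mem_singleton] at ha
        rcases ha with rfl | rfl <;> simp [hf])
  have h := Finset.card_eq_sum_card_image f (Finset.univ : Finset CC)
  have h2 := Finset.card_nsmul_le_sum (Finset.univ.image f) _ 2 hfib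
  rw [Finset.card_univ, hc] at h
  rw [smul_eq_mul, ← h] at h2
  omega

variable {G : Type*} [Group G] [Finite G] {z : G} {Q : Subgroup (Subgroup.centralizer ({z} : Set G))} [Q.Normal]
  {e : (Subgroup.centralizer ({z} : Set G)) ⧸ Q ≃* Spor.Co1} {ψ : leechLattice → Q ⧸ Subgroup.center Q}

theorem card_comm_noncentral (hX : IsExtraspecial 2 Q) (hcard : Nat.card Q = 2 ^ 25) (hiso : IsLeechModTwoIso Q e ψ)
    (a : Q) (ha : a ∉ Subgroup.center Q) : Nat.card {q : Q // q * a = a * q} = 2 ^ 24 := by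
  have hcomQ : ∀ u : Q, u * a * u⁻¹ * a⁻¹ ∈ Subgroup.center Q := by
    intro u
    obtain ⟨b, hb⟩ := hiso.2.1 (QuotientGroup.mk u)
    obtain ⟨b', hb'⟩ := hiso.2.1 (QuotientGroup.mk a)
    rw [← QuotientGroup.eq_one_iff, QuotientGroup.mk_mul, QuotientGroup.mk_mul, QuotientGroup.mk_mul,
      QuotientGroup.mk_inv, QuotientGroup.mk_inv, ← hb, ← hb', ← hiso.1 b b', add_comm, hiso.1]
    group
  let η : Q →* Subgroup.center Q :=
    { toFun := fun u => ⟨_, hcomQ u⟩
      map_one' := Subtype.ext (by simp)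
      map_mul' := fun u w => Subtype.ext (by
        have hc := Subgroup.mem_center_iff.1 (hcomQ w) u
        show u * w * a * (u * w)⁻¹ * a⁻¹ = u * a * u⁻¹ * a⁻¹ * (w * a * w⁻¹ * a⁻¹)
        calc u * w * a * (u * w)⁻¹ * a⁻¹ = (u * (w * a * w⁻¹ * a⁻¹)) * a * u⁻¹ * a⁻¹ := by group
          _ = ((w * a * w⁻¹ * a⁻¹) * u) * a * u⁻¹ * a⁻¹ := by rw [hc]
          _ = (w * a * w⁻¹ * a⁻¹) * (u * a * u⁻¹ * a⁻¹) := by group
          _ = _ := (Subgroup.mem_center_iff.1 (hcomQ w) _).symm) }
  have hker : ∀ u, u ∈ η.ker ↔ u * a = a * u := by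
    intro u
    rw [MonoidHom.mem_ker]
    constructor
    · intro h
      have h1 : u * a * u⁻¹ * a⁻¹ = 1 := congrArg Subtype.val h
      calc u * a = u * a * u⁻¹ * a⁻¹ * (a * u) := by group
        _ = a * u := by rw [h1, one_mul]
    · intro h
      refine Subtype.ext ?_
      show u * a * u⁻¹ * a⁻¹ = 1
      rw [h]; group
  have hrange : Nat.card η.range = 2 := by
    have hle : Nat.card η.range ≤ 2 := hX.2 ▸ Subgroup.card_le_card_group _
    have hne : η.range ≠ ⊥ := fun hb => ha (Subgroup.mem_center_iff.2 fun u => by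
      refine (hker u).1 ?_
      rw [MonoidHom.mem_ker]
      exact Subgroup.mem_bot.1 (hb ▸ η.mem_range.2 ⟨u, rfl⟩))
    have h1 := (Subgroup.one_lt_card_iff_ne_bot η.range).2 hne
    omega
  have h := η.ker.card_mul_index
  rw [Subgroup.index_ker, hrange, hcard] at h
  rw [← Nat.card_congr (Equiv.subtypeEquivRight hker)]
  show Nat.card η.ker = _
  omega

theorem conjPart_card_eq (hset : IsExtraspecialCentralizerSetting z Q 12) (hiso : IsLeechModTwoIso Q e ψ) {c s : G}
    (hc : c * z * c⁻¹ = s) (hsne : s ≠ z)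
    (hcen : ∀ a ∈ Subgroup.center Q, a ∈ (conjPart Q c).subgroupOf Q) : Nat.card (conjPart Q c) = 2 ^ 24 := by
  obtain ⟨zq, hzq⟩ := exists_z_mem hset
  obtain ⟨a, ha⟩ := mem_conjPart.1
    (Subgroup.mem_subgroupOf.1 (hcen zq ((monster_center hset zq).2 (Or.inr hzq))))
  rw [hzq] at ha
  have hzne : z ≠ 1 := fun e1 => by have := hset.1; rw [e1, orderOf_one] at this; omega
  have hac : a ∉ Subgroup.center Q := fun h => by
    rcases (monster_center hset a).1 h with h1 | h1 <;> rw [h1] at ha
    · exact hzne (by calc z = c * (c⁻¹ * z * c) * c⁻¹ := by group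
        _ = 1 := by rw [← ha]; group)
    · refine hsne ?_
      rw [← hc]
      calc c * z * c⁻¹ = c * (c⁻¹ * z * c) * c⁻¹ := by rw [← ha]
        _ = z := by group
  rw [← card_comm_noncentral hset.2.2.1 hset.2.2.2.1 hiso a hac]
  have hfwd : ∀ r : conjPart Q c, ∃ q : {q : Q // q * a = a * q},
      ((q.1 : Subgroup.centralizer ({z} : Set G)) : G) =
        c⁻¹ * ((r : Subgroup.centralizer ({z} : Set G)) : G) * c := by
    intro r
    obtain ⟨q, hq⟩ := mem_conjPart.1 r.2
    refine ⟨⟨q, Subtype.ext (Subtype.ext ?_)⟩, hq⟩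
    show ((q : Subgroup.centralizer ({z} : Set G)) : G) * ((a : Subgroup.centralizer ({z} : Set G)) : G) =
      ((a : Subgroup.centralizer ({z} : Set G)) : G) * ((q : Subgroup.centralizer ({z} : Set G)) : G)
    rw [hq, ha]
    have := Subgroup.mem_centralizer_singleton_iff.1 (r : Subgroup.centralizer ({z} : Set G)).2
    calc c⁻¹ * ((r : Subgroup.centralizer ({z} : Set G)) : G) * c * (c⁻¹ * z * c)
        = c⁻¹ * (((r : Subgroup.centralizer ({z} : Set G)) : G) * z) * c := by group
      _ = c⁻¹ * (z * ((r : Subgroup.centralizer ({z} : Set G)) : G)) * c := by rw [this]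
      _ = _ := by group
  choose f hf using hfwd
  refine Nat.card_eq_of_bijective f ⟨fun r r' h => ?_, fun q => ?_⟩
  · have h1 := hf r
    rw [h, hf r'] at h1
    exact Subtype.ext (Subtype.ext (mul_left_cancel (mul_right_cancel h1)).symm)
  · have hq := congrArg (fun t : Q => ((t : Subgroup.centralizer ({z} : Set G)) : G)) q.2
    simp only [Subgroup.coe_mul, ha] at hq
    have hC : c * ((q.1 : Subgroup.centralizer ({z} : Set G)) : G) * c⁻¹ ∈ Subgroup.centralizer ({z} : Set G) := by
      rw [Subgroup.mem_centralizer_singleton_iff]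
      calc c * ((q.1 : Subgroup.centralizer ({z} : Set G)) : G) * c⁻¹ * z
          = c * (((q.1 : Subgroup.centralizer ({z} : Set G)) : G) * (c⁻¹ * z * c)) * c⁻¹ := by group
        _ = c * (c⁻¹ * z * c * ((q.1 : Subgroup.centralizer ({z} : Set G)) : G)) * c⁻¹ := by rw [hq]
        _ = _ := by group
    let r : conjPart Q c := ⟨⟨_, hC⟩, mem_conjPart.2 ⟨q.1, by group⟩⟩
    refine ⟨r, Subtype.ext (Subtype.ext (Subtype.ext ?_))⟩
    rw [hf r]
    show c⁻¹ * (c * ((q.1 : Subgroup.centralizer ({z} : Set G)) : G) * c⁻¹) * c = _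
    group

/-- The image of the conjugate part consists of sign changes, the image of the centralizer of `x` is monomial. -/
theorem monster_split_frame (hset : IsExtraspecialCentralizerSetting z Q 12) (hiso : IsLeechModTwoIso Q e ψ)
    (x : Q) (hvx : ψ (eight none) = QuotientGroup.mk x) (c : G)
    (hc : c * z * c⁻¹ = ((x : Subgroup.centralizer ({z} : Set G)) : G))
    (D : Subgroup (Subgroup.centralizer ({z} : Set G)))
    (hD : ∀ h : Subgroup.centralizer ({z} : Set G), h ∈ D ↔
      (h : G) * ((x : Subgroup.centralizer ({z} : Set G)) : G) =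
        ((x : Subgroup.centralizer ({z} : Set G)) : G) * (h : G)) :
    let X := D.map (QuotientGroup.mk' Q)
    let E := (conjPart Q c).map (QuotientGroup.mk' Q)
    E ≤ X ∧ (∀ a ∈ X, ∀ b ∈ E, a * b * a⁻¹ ∈ E) ∧ IsElementaryAbelian 2 E ∧ Nat.card E = 2 ^ 11 ∧
      ∃ K : Subgroup ((Subgroup.centralizer ({z} : Set G)) ⧸ Q),
        K ≤ X ∧ E ⊓ K = ⊥ ∧ E ⊔ K = X ∧ Nonempty (K ≃* M24) := by
  intro X E
  have hX := hset.2.2.1
  have hxc := psi_not_center hiso (Or.inr (eight_norm none)) hvx
  have hsne : ((x : Subgroup.centralizer ({z} : Set G)) : G) ≠ z :=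
    fun e1 => hxc ((monster_center hset x).2 (Or.inr e1))
  obtain ⟨hRQ, hcen, hframe⟩ := monster_inter_frame hset hiso x hvx c hc
  have hRD : conjPart Q c ≤ D := fun r hr => (hD r).2 (conjPart_comm hc hr)
  have hER : E ≤ X := Subgroup.map_mono hRD
  have hnorm : ∀ a ∈ X, ∀ b ∈ E, a * b * a⁻¹ ∈ E := by
    rintro _ ⟨d, hd, rfl⟩ _ ⟨r, hr, rfl⟩
    exact ⟨d * r * d⁻¹, conjPart_normal hc ((hD d).1 hd) hr, by simp⟩
  -- the square and the commutator of elements of `conjPart` lie in `Q`
  have hcenR : ∀ (r : Subgroup.centralizer ({z} : Set G)) (q : Q),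
      q ∈ Subgroup.center Q → ((q : Subgroup.centralizer ({z} : Set G)) : G) = c⁻¹ * (r : G) * c →
      (r : G) = 1 ∨ (r : G) = ((x : Subgroup.centralizer ({z} : Set G)) : G) := by
    intro r q hq he
    rcases (monster_center hset q).1 hq with h1 | h1 <;> rw [h1] at he
    · left
      calc (r : G) = c * (c⁻¹ * (r : G) * c) * c⁻¹ := by group
        _ = 1 := by rw [← he]; group
    · right
      rw [← hc]
      calc (r : G) = c * (c⁻¹ * (r : G) * c) * c⁻¹ := by group
        _ = c * z * c⁻¹ := by rw [← he]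
  have hinQ : ∀ r : Subgroup.centralizer ({z} : Set G),
      ((r : G) = 1 ∨ (r : G) = ((x : Subgroup.centralizer ({z} : Set G)) : G)) → r ∈ Q := by
    rintro r (h | h)
    · rw [show r = 1 from Subtype.ext h]; exact one_mem _
    · rw [show r = (x : Subgroup.centralizer ({z} : Set G)) from Subtype.ext h]; exact x.2
  have hcommR : ∀ a ∈ conjPart Q c, ∀ b ∈ conjPart Q c,
      ((a * b * a⁻¹ * b⁻¹ : Subgroup.centralizer ({z} : Set G)) : G) = 1 ∨
      ((a * b * a⁻¹ * b⁻¹ : Subgroup.centralizer ({z} : Set G)) : G) =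
        ((x : Subgroup.centralizer ({z} : Set G)) : G) := by
    intro a ha b hb
    obtain ⟨p, hp⟩ := mem_conjPart.1 ha
    obtain ⟨q, hq⟩ := mem_conjPart.1 hb
    refine hcenR _ (p * q * p⁻¹ * q⁻¹) ?_ (by simp only [Subgroup.coe_mul, Subgroup.coe_inv, hp, hq]; group)
    obtain ⟨u, hu⟩ := hiso.2.1 (QuotientGroup.mk p)
    obtain ⟨u', hu'⟩ := hiso.2.1 (QuotientGroup.mk q)
    rw [← QuotientGroup.eq_one_iff, QuotientGroup.mk_mul, QuotientGroup.mk_mul, QuotientGroup.mk_mul,
      QuotientGroup.mk_inv, QuotientGroup.mk_inv, ← hu, ← hu', ← hiso.1 u u', add_comm, hiso.1]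
    group
  have helem : IsElementaryAbelian 2 E := by
    refine ⟨⟨⟨fun a b => ?_⟩⟩, fun a ha => ?_⟩
    · obtain ⟨a', ha', ea⟩ := a.2
      obtain ⟨b', hb', eb⟩ := b.2
      refine Subtype.ext ?_
      rw [Subgroup.coe_mul, Subgroup.coe_mul, ← ea, ← eb, ← map_mul, ← map_mul, QuotientGroup.mk'_apply,
        QuotientGroup.mk'_apply, QuotientGroup.eq]
      have := hinQ _ (hcommR b'⁻¹ (inv_mem hb') a'⁻¹ (inv_mem ha'))
      simpa [mul_assoc] using this
    · obtain ⟨a', ha', rfl⟩ := ha
      rw [pow_two, ← map_mul, QuotientGroup.mk'_apply, QuotientGroup.eq_one_iff]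
      obtain ⟨p, hp⟩ := mem_conjPart.1 ha'
      exact hinQ _ (hcenR _ (p * p) (sq_mem_center hiso p)
        (by simp only [Subgroup.coe_mul, hp]; group))
  have hEcard : Nat.card E = 2 ^ 11 := by
    let f : conjPart Q c →* (Subgroup.centralizer ({z} : Set G)) ⧸ Q :=
      (QuotientGroup.mk' Q).comp (conjPart Q c).subtype
    have hrange : f.range = E := by
      show f.range = (conjPart Q c).map (QuotientGroup.mk' Q)
      rw [MonoidHom.range_eq_map, ← Subgroup.map_map, ← MonoidHom.range_eq_map, Subgroup.range_subtype]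
    have hker : Nat.card f.ker = 2 ^ 13 := by
      rw [← hRQ]
      refine Nat.card_congr ⟨fun r => ⟨⟨r.1.1, (QuotientGroup.eq_one_iff _).1 r.2⟩,
          Subgroup.mem_subgroupOf.2 r.1.2⟩,
        fun q => ⟨⟨q.1.1, Subgroup.mem_subgroupOf.1 q.2⟩, (QuotientGroup.eq_one_iff _).2 q.1.2⟩,
        fun r => rfl, fun q => rfl⟩
    have h := f.ker.card_mul_index
    rw [Subgroup.index_ker, hker, hrange, conjPart_card_eq hset hiso hc hsne hcen] at h
    omega
  -- identification through `e`
  have hXmono : ∀ h ∈ D, ∀ g : Co0, (QuotientGroup.mk g : Spor.Co1) = e (QuotientGroup.mk h) →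
      ∃ p : M24 × CC, monoElt p = g := by
    intro h hh g hg
    refine cross_stab ((psi_cls_iff hiso).1 ?_)
    rw [hiso.2.2.2 h g hg (eight none) x hvx, hvx]
    congr 1
    refine Subtype.ext (Subtype.ext ?_)
    show (h : G) * ((x : Subgroup.centralizer ({z} : Set G)) : G) * (h : G)⁻¹ = _
    rw [(hD h).1 hh]; group
  have hEflip : ∀ a ∈ E, e a ∈ flipImages := by
    rintro _ ⟨r, hr, rfl⟩
    obtain ⟨g, hg⟩ := QuotientGroup.mk_surjective (e (QuotientGroup.mk r))
    obtain ⟨⟨σ, d⟩, rfl⟩ := hXmono r (hRD hr) g hg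
    have hσ : ∀ a, (σ : Equiv.Perm GolayPt) a = a := by
      refine perm_trivial_of_frame (c := d) fun a b hab => ?_
      obtain ⟨q, hqR, hq⟩ := hframe (plusVec a b) fun i => by
        simp only [plusVec]; split <;> split <;> norm_num
      have himg := hiso.2.2.2 r _ hg (plusVec a b) q hq
      rcases hcommR r hr q hqR with h1 | h1
      · left
        refine (psi_cls_iff hiso).1 ?_
        rw [himg, hq]
        congr 1
        refine Subtype.ext (Subtype.ext ?_)
        simp only [Subgroup.coe_mul, Subgroup.coe_inv] at h1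
        exact mul_inv_eq_one.1 h1
      · right
        refine (psi_cls_iff hiso).1 ?_
        rw [himg, hiso.1, hvx, hq, ← QuotientGroup.mk_mul,
          show q * x = x * q from Subtype.ext (Subtype.ext (conjPart_comm hc hqR))]
        congr 1
        refine Subtype.ext (Subtype.ext ?_)
        simp only [Subgroup.coe_mul, Subgroup.coe_inv] at h1
        exact mul_inv_eq_iff_eq_mul.1 h1
    refine ⟨d, ?_⟩
    rw [QuotientGroup.mk'_apply, ← hg]
    show (QuotientGroup.mk _ : Spor.Co1) = QuotientGroup.mk _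
    congr 1
    refine co0_ext fun v => funext fun i => ?_
    rw [flipElt_apply, monoElt_apply]
    simp only [signedPerm]
    have : (σ : Equiv.Perm GolayPt).symm i = i := by rw [Equiv.symm_apply_eq]; exact (hσ i).symm
    simp [this]
  have hflip : ∀ d : CC, e.symm (QuotientGroup.mk (flipElt d.1 d.2)) ∈ E := by
    intro d
    have hsub : e '' (E : Set ((Subgroup.centralizer ({z} : Set G)) ⧸ Q)) ⊆ flipImages := by
      rintro _ ⟨a, ha, rfl⟩; exact hEflip a ha
    have heq : e '' (E : Set ((Subgroup.centralizer ({z} : Set G)) ⧸ Q)) = flipImages := by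
      refine Set.eq_of_subset_of_ncard_le hsub ?_ (Set.finite_range _)
      rw [Set.ncard_image_of_injective _ e.injective]
      refine le_trans flipImages_card (le_of_eq ?_)
      rw [← Nat.card_coe_set_eq]
      exact hEcard.symm
    obtain ⟨a, ha, ha'⟩ : (QuotientGroup.mk (flipElt d.1 d.2) : Spor.Co1) ∈
        e '' (E : Set ((Subgroup.centralizer ({z} : Set G)) ⧸ Q)) := by rw [heq]; exact ⟨d, rfl⟩
    rw [← ha', MulEquiv.symm_apply_apply]
    exact ha
  let κ : M24 →* (Subgroup.centralizer ({z} : Set G)) ⧸ Q :=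
    e.symm.toMonoidHom.comp ((QuotientGroup.mk' (Subgroup.center Co0)).comp permHom)
  have hκinj : Function.Injective κ := by
    rw [injective_iff_map_eq_one]
    intro σ hσ
    have h1 : (QuotientGroup.mk (permHom σ) : Spor.Co1) = 1 := e.symm.injective (hσ.trans (map_one _).symm)
    exact permHom_center_trivial ((QuotientGroup.eq_one_iff _).1 h1)
  have hKX : κ.range ≤ X := by
    rintro _ ⟨σ, rfl⟩
    obtain ⟨h, hh, he⟩ := monster_conj_image hX hiso hxc hvx
      (show ψ (permHom σ • eight none) = QuotientGroup.mk x by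
        rw [psi_congr hiso (show cls (permHom σ • eight none) = cls (eight none) from perm_eight_cls _ σ.2), hvx]) rfl
    refine ⟨h, (hD h).2 ?_, ?_⟩
    · have := congrArg (fun a : Subgroup.centralizer ({z} : Set G) => (a : G)) hh
      simp only [Subgroup.coe_mul, Subgroup.coe_inv] at this
      exact mul_inv_eq_iff_eq_mul.1 this
    · show QuotientGroup.mk h = e.symm _
      rw [MulEquiv.eq_symm_apply, he]; rfl
  refine ⟨hER, hnorm, helem, hEcard, κ.range, hKX, ?_, ?_, ⟨(MonoidHom.ofInjective hκinj).symm⟩⟩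
  · rw [Subgroup.eq_bot_iff_forall]
    rintro a ⟨haE, σ, rfl⟩
    obtain ⟨d, hd⟩ := hEflip _ haE
    have h1 : e (κ σ) = QuotientGroup.mk (permHom σ) := e.apply_symm_apply _
    rw [h1] at hd
    have hd' : (flipElt d.1 d.2)⁻¹ * permHom σ ∈ Subgroup.center Co0 := QuotientGroup.eq.1 hd
    have hσ1 : σ = 1 := by
      refine Subtype.ext (Equiv.ext fun a => ?_)
      by_contra hne
      have hne' : (σ : Equiv.Perm GolayPt) a ≠ a := hne
      rcases center_le hd' with e1 | e1 <;>
        · have e2 := congrArg (fun g : Co0 => flipElt d.1 d.2 * g) e1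
          simp only [mul_inv_cancel_left] at e2
          have := congrArg
            (fun g : Co0 => ((g • eight a : leechLattice) : GolayPt → ℤ) ((σ : Equiv.Perm GolayPt) a)) e2
          simp [permHom, permElt_eight, mul_smul, flipElt_apply, eight_apply, negElt_apply, hne'] at this
    rw [hσ1, map_one]
  · refine le_antisymm (sup_le hER hKX) ?_
    rintro _ ⟨h, hh, rfl⟩
    obtain ⟨g, hg⟩ := QuotientGroup.mk_surjective (e (QuotientGroup.mk h))
    obtain ⟨⟨σ, d⟩, rfl⟩ := hXmono h hh g hg
    have : QuotientGroup.mk' Q h = e.symm (QuotientGroup.mk (flipElt d.1 d.2)) * κ σ := by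
      apply e.injective
      rw [QuotientGroup.mk'_apply, ← hg, map_mul, e.apply_symm_apply]
      show (QuotientGroup.mk _ : Spor.Co1) = QuotientGroup.mk _ * e (e.symm (QuotientGroup.mk (permHom σ)))
      rw [e.apply_symm_apply, ← QuotientGroup.mk_mul]
      rfl
    rw [this]
    exact Subgroup.mul_mem_sup (hflip d) ⟨σ, rfl⟩

theorem monster_split (hM : IsOfMonsterType z Q) (s : G)
    (hsQ : ∃ hsc : s ∈ Subgroup.centralizer ({z} : Set G), (⟨s, hsc⟩ : Subgroup.centralizer ({z} : Set G)) ∈ Q)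
    (hs1 : s ≠ z) (g : G) (hg : g * z * g⁻¹ = s) (X E : Subgroup ((Subgroup.centralizer ({z} : Set G)) ⧸ Q))
    (hX : X = ((Subgroup.centralizer ({z} : Set G) ⊓ Subgroup.centralizer ({s} : Set G)).subgroupOf
      (Subgroup.centralizer ({z} : Set G))).map (QuotientGroup.mk' Q))
    (hE : E = (((Q.map (Subgroup.centralizer ({z} : Set G)).subtype).map (MulAut.conj g).toMonoidHom ⊓
      Subgroup.centralizer ({z} : Set G)).subgroupOf (Subgroup.centralizer ({z} : Set G))).map (QuotientGroup.mk' Q)) :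
    E ≤ X ∧ (∀ x ∈ X, ∀ y ∈ E, x * y * x⁻¹ ∈ E) ∧ IsElementaryAbelian 2 E ∧ Nat.card E = 2 ^ 11 ∧
      ∃ K : Subgroup ((Subgroup.centralizer ({z} : Set G)) ⧸ Q),
        K ≤ X ∧ E ⊓ K = ⊥ ∧ E ⊔ K = X ∧ Nonempty (K ≃* M24) := by
  obtain ⟨hset, e, ψ, hiso⟩ := hM
  obtain ⟨hsc, hsQ⟩ := hsQ
  obtain ⟨v, hv, hvs⟩ := (monster_fused_iff hset hiso ⟨_, hsQ⟩).1 ⟨isConj_iff.2 ⟨g, hg⟩, hs1⟩
  obtain ⟨k, hk⟩ := trans_cross (eight_norm none) hv
  have h := monster_split_frame hset (iso_twist hiso k) ⟨_, hsQ⟩ (by show ψ (k • eight none) = _; rw [hk, hvs]) g hg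
    ((Subgroup.centralizer ({z} : Set G) ⊓ Subgroup.centralizer ({s} : Set G)).subgroupOf
      (Subgroup.centralizer ({z} : Set G))) (fun h => by
      rw [Subgroup.mem_subgroupOf, Subgroup.mem_inf]
      exact ⟨fun h1 => Subgroup.mem_centralizer_singleton_iff.1 h1.2,
        fun h1 => ⟨h.2, Subgroup.mem_centralizer_singleton_iff.2 h1⟩⟩)
  have hEeq : ((Q.map (Subgroup.centralizer ({z} : Set G)).subtype).map (MulAut.conj g).toMonoidHom ⊓
      Subgroup.centralizer ({z} : Set G)).subgroupOf (Subgroup.centralizer ({z} : Set G)) = conjPart Q g := by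
    ext r
    rw [Subgroup.mem_subgroupOf, Subgroup.mem_inf, mem_conjPart]
    constructor
    · rintro ⟨hr, -⟩
      obtain ⟨b, hb, hbr⟩ := Subgroup.mem_map.1 hr
      obtain ⟨q, hq, rfl⟩ := Subgroup.mem_map.1 hb
      refine ⟨⟨q, hq⟩, ?_⟩
      have h' : g * ((q : Subgroup.centralizer ({z} : Set G)) : G) * g⁻¹ = (r : G) := hbr
      show ((q : Subgroup.centralizer ({z} : Set G)) : G) = _
      rw [← h']; group
    · rintro ⟨q, hq⟩
      refine ⟨⟨_, Subgroup.mem_map_of_mem _ q.2, ?_⟩, r.2⟩
      show g * ((q : Subgroup.centralizer ({z} : Set G)) : G) * g⁻¹ = (r : G)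
      rw [hq]; group
  rw [hX, hE, hEeq]
  exact h

end Cfsg.Lib.Leech
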