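import Mathlib
import Cfsg.Agent.Lib.Comp.CharP
import Cfsg.Agent.Lib.Solv.PGroupBasic
import Cfsg.Agent.Lib.Leech.MonsterSplit
import Cfsg.Agent.Lib.Leech.Co2Module

/-!
In a group of Monster type the centralizer of a non-fused involution of `Q`, modulo that involution,
is of Baby Monster type.
-/

set_option autoImplicit false

namespace Cfsg.Lib.Leech

open Cfsg Cfsg.Lib.Golay

variable {G : Type*} [Group G] [Finite G] {z : G} {Q : Subgroup (Subgroup.centralizer ({z} : Set G))} [Q.Normal]
  {e : (Subgroup.centralizer ({z} : Set G)) ⧸ Q ≃* Spor.Co1} {ψ : leechLattice → Q ⧸ Subgroup.center Q}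

theorem monster_comm_iff (hset : IsExtraspecialCentralizerSetting z Q 12) (hiso : IsLeechModTwoIso Q e ψ)
    {x q : Q} {u w : leechLattice} (hu : sqNorm (u : GolayPt → ℤ) = 32) (hux : ψ u = QuotientGroup.mk x)
    (hwq : ψ w = QuotientGroup.mk q) : q * x = x * q ↔ dotInt (u : GolayPt → ℤ) w % 16 = 0 := by
  have hX := hset.2.2.1
  have hcard : Nat.card Q = 2 ^ 25 := hset.2.2.2.1
  have hsum : ψ (u + w) = QuotientGroup.mk (x * q) := by rw [hiso.1, hux, hwq, QuotientGroup.mk_mul]
  have hn := norm_sum u w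
  rw [hu] at hn
  have hx2 : x * x = 1 := monster_square hX hiso (Or.inl hu) hux
  have hP : ∀ {v : leechLattice} {a : Q}, ψ v = QuotientGroup.mk a → (a * a = 1 ↔ sqNorm (v : GolayPt → ℤ) % 32 = 0) :=
    fun h => ⟨fun h1 => monster_even hX hcard hiso h1 h, fun h1 => monster_square_even hset hiso h1 h⟩
  have hcz : ∀ a b : Q, a * a ≠ 1 → b * b ≠ 1 → a * a = b * b := by
    intro a b ha hb
    have h1 := ((monster_center hset _).1 (sq_mem_center hiso a)).resolve_left
      (fun e1 => ha (Subtype.ext (Subtype.ext e1)))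
    have h2 := ((monster_center hset _).1 (sq_mem_center hiso b)).resolve_left
      (fun e1 => hb (Subtype.ext (Subtype.ext e1)))
    exact Subtype.ext (Subtype.ext (h1.trans h2.symm))
  have := hP hsum
  have := hP hwq
  have := norm_dvd w.2
  have := dot_dvd u w
  constructor
  · intro hc
    have e1 : x * q * (x * q) = q * q := by
      calc x * q * (x * q) = x * (q * x) * q := by group
        _ = x * (x * q) * q := by rw [hc]
        _ = (x * x) * (q * q) := by group
        _ = q * q := by rw [hx2, one_mul]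
    by_cases hq : q * q = 1
    · have h1 := (hP hsum).1 (e1.trans hq)
      have h2 := (hP hwq).1 hq
      omega
    · have h1 : ¬ sqNorm ((u + w : leechLattice) : GolayPt → ℤ) % 32 = 0 :=
        fun h => hq (e1.symm.trans ((hP hsum).2 h))
      have h2 : ¬ sqNorm (w : GolayPt → ℤ) % 32 = 0 := fun h => hq ((hP hwq).2 h)
      omega
  · intro hd
    have e1 : x * q * (x * q) = q * q := by
      by_cases hq : q * q = 1
      · rw [hq]
        refine (hP hsum).2 ?_
        have := (hP hwq).1 hq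
        omega
      · refine hcz _ _ (fun h => hq ((hP hwq).2 ?_)) hq
        have := (hP hsum).1 h
        omega
    have e2 : x * q * x = q := mul_right_cancel (b := q) (by rw [← e1]; group)
    calc q * x = x * q * x * x := by rw [e2]
      _ = x * q * (x * x) := by group
      _ = x * q := by rw [hx2, mul_one]

/-- A double centralizer in the extraspecial group. -/
theorem double_centralizer (hX : IsExtraspecial 2 Q) (hiso : IsLeechModTwoIso Q e ψ) (x q : Q)
    (h : ∀ u : Q, u * x = x * u → u * q = q * u) :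
    q ∈ Subgroup.center Q ∨ q * x⁻¹ ∈ Subgroup.center Q := by
  by_cases hq : q ∈ Subgroup.center Q
  · exact Or.inl hq
  right
  obtain ⟨u0, hu0⟩ : ∃ u : Q, u * q ≠ q * u := by
    by_contra hc; push Not at hc; exact hq (Subgroup.mem_center_iff.2 hc)
  have hu0x : u0 * x ≠ x * u0 := fun h' => hu0 (h u0 h')
  have hcomZ : ∀ a b : Q, a * b * a⁻¹ * b⁻¹ ∈ Subgroup.center Q := by
    intro a b
    obtain ⟨v, hv⟩ := hiso.2.1 (QuotientGroup.mk a)
    obtain ⟨v', hv'⟩ := hiso.2.1 (QuotientGroup.mk b)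
    rw [← QuotientGroup.eq_one_iff, QuotientGroup.mk_mul, QuotientGroup.mk_mul, QuotientGroup.mk_mul,
      QuotientGroup.mk_inv, QuotientGroup.mk_inv, ← hv, ← hv', ← hiso.1 v v', add_comm, hiso.1]
    group
  have huniq : ∀ a b : Subgroup.center Q, a ≠ 1 → b ≠ 1 → a = b := by
    intro a b ha hb
    by_contra hab
    classical
    have := Fintype.ofFinite (Subgroup.center Q)
    have h3 : ({1, a, b} : Finset (Subgroup.center Q)).card = 3 := by
      rw [Finset.card_insert_of_notMem, Finset.card_pair hab]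
      simp [Ne.symm ha, Ne.symm hb]
    have h2 := Finset.card_le_univ ({1, a, b} : Finset (Subgroup.center Q))
    have hZ2 := hX.2
    rw [Nat.card_eq_fintype_card] at hZ2
    omega
  have hne : ∀ a b : Q, a * b ≠ b * a → a * b * a⁻¹ * b⁻¹ ≠ 1 := fun a b hab h1 => hab (by
    calc a * b = a * b * a⁻¹ * b⁻¹ * (b * a) := by group
      _ = b * a := by rw [h1, one_mul])
  have hprod : ∀ w : Q, w * x ≠ x * w → w * q ≠ q * w := by
    intro w hw hwq
    -- `u0⁻¹ w` centralizes `x` because the two commutators agree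
    have he := congrArg Subtype.val (huniq ⟨_, hcomZ w x⟩ ⟨_, hcomZ u0 x⟩
      (fun h1 => hne _ _ hw (congrArg Subtype.val h1)) (fun h1 => hne _ _ hu0x (congrArg Subtype.val h1)))
    simp only at he
    have h1 : w * x * w⁻¹ = u0 * x * u0⁻¹ := mul_right_cancel he
    have h2 : u0⁻¹ * w * x = x * (u0⁻¹ * w) := by
      calc u0⁻¹ * w * x = u0⁻¹ * (w * x * w⁻¹) * w := by group
        _ = x * (u0⁻¹ * w) := by rw [h1]; group
    have h3 := h _ h2
    apply hu0
    have h4 : u0⁻¹ * w * q = u0⁻¹ * (q * w) := by rw [mul_assoc, hwq]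
    have h5 : u0⁻¹ * q = q * u0⁻¹ := mul_right_cancel (b := w) (by
      rw [mul_assoc, ← h4, h3]; group)
    calc u0 * q = u0 * (q * u0⁻¹) * u0 := by group
      _ = u0 * (u0⁻¹ * q) * u0 := by rw [h5]
      _ = q * u0 := by group
  rw [Subgroup.mem_center_iff]
  intro w
  by_cases hw : w * x = x * w
  · have h1 := h w hw
    have h2 : x⁻¹ * w = w * x⁻¹ := by
      calc x⁻¹ * w = x⁻¹ * (w * x) * x⁻¹ := by group
        _ = x⁻¹ * (x * w) * x⁻¹ := by rw [hw]
        _ = w * x⁻¹ := by group
    calc w * (q * x⁻¹) = (w * q) * x⁻¹ := by group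
      _ = q * (w * x⁻¹) := by rw [h1]; group
      _ = q * (x⁻¹ * w) := by rw [h2]
      _ = q * x⁻¹ * w := by group
  · have hwq := hprod w hw
    have he := congrArg Subtype.val (huniq ⟨_, hcomZ w q⟩ ⟨_, hcomZ w x⟩
      (fun h1 => hne _ _ hwq (congrArg Subtype.val h1)) (fun h1 => hne _ _ hw (congrArg Subtype.val h1)))
    simp only at he
    have hcw := Subgroup.mem_center_iff.1 (hcomZ w x) q
    calc w * (q * x⁻¹) = (w * q * w⁻¹ * q⁻¹) * q * w * x⁻¹ := by group
      _ = (w * x * w⁻¹ * x⁻¹) * q * w * x⁻¹ := by rw [he]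
      _ = q * (w * x * w⁻¹ * x⁻¹) * w * x⁻¹ := by rw [hcw]
      _ = q * x⁻¹ * (x * (w * x * w⁻¹ * x⁻¹)) * w * x⁻¹ := by group
      _ = q * x⁻¹ * ((w * x * w⁻¹ * x⁻¹) * x) * w * x⁻¹ := by rw [Subgroup.mem_center_iff.1 (hcomZ w x) x]
      _ = q * x⁻¹ * w := by group

/-- `baseStab` as `Spor.Co2`. -/
noncomputable def toCo2 : baseStab ≃* Spor.Co2 :=
  MulEquiv.ofBijective
    ({ toFun := fun g => ⟨((g : Co0) : Equiv.Perm leechLattice), (g : Co0).2, by
          show ((g : Co0) : Equiv.Perm leechLattice) • Spor.leechU = Spor.leechU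
          rw [← baseVec_eq_leechU]; exact g.2⟩
       map_one' := rfl
       map_mul' := fun _ _ => rfl } : baseStab →* Spor.Co2)
    ⟨fun a b h => Subtype.ext (Subtype.ext (congrArg (fun t : Spor.Co2 => (t : Equiv.Perm leechLattice)) h)),
      fun g => ⟨⟨⟨g.1, g.2.1⟩, by
        show g.1 • baseVec = baseVec
        rw [baseVec_eq_leechU]; exact g.2.2⟩, rfl⟩⟩

set_option maxHeartbeats 4000000 in
theorem monster_baby_frame (hset : IsExtraspecialCentralizerSetting z Q 12) (hiso : IsLeechModTwoIso Q e ψ)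
    (x : Q) (hvx : ψ baseVec = QuotientGroup.mk x)
    [hn : ((Subgroup.zpowers ((x : Subgroup.centralizer ({z} : Set G)) : G)).subgroupOf
      (Subgroup.centralizer ({((x : Subgroup.centralizer ({z} : Set G)) : G)} : Set G))).Normal] :
    IsOfBabyMonsterType (↥(Subgroup.centralizer ({((x : Subgroup.centralizer ({z} : Set G)) : G)} : Set G)) ⧸
      (Subgroup.zpowers ((x : Subgroup.centralizer ({z} : Set G)) : G)).subgroupOf
        (Subgroup.centralizer ({((x : Subgroup.centralizer ({z} : Set G)) : G)} : Set G))) := by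
  classical
  have hX := hset.2.2.1
  have hcard : Nat.card Q = 2 ^ 25 := hset.2.2.2.1
  have hu32 := baseVec_norm
  have hxc := psi_not_center hiso (Or.inl hu32) hvx
  have hx2 : x * x = 1 := monster_square hX hiso (Or.inl hu32) hvx
  set t : G := ((x : Subgroup.centralizer ({z} : Set G)) : G) with ht
  have hnf : ¬ IsConj z t := not_conj_minimal hset hiso x hu32 hvx
  obtain ⟨zq, hzq⟩ := exists_z_mem hset
  have hzqc : zq ∈ Subgroup.center Q := (monster_center hset zq).2 (Or.inr hzq)
  have hz1 : z ≠ 1 := fun e1 => by have := hset.1; rw [e1, orderOf_one] at this; omega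
  have hz2 : z * z = 1 := by rw [← pow_two, ← hset.1]; exact pow_orderOf_eq_one z
  have hzt : z * t = t * z := (Subgroup.mem_centralizer_singleton_iff.1 (x : Subgroup.centralizer ({z} : Set G)).2).symm
  have ht2 : t * t = 1 := congrArg (fun q : Q => ((q : Subgroup.centralizer ({z} : Set G)) : G)) hx2
  have ht1 : t ≠ 1 := fun e1 => hxc ((monster_center hset x).2 (Or.inl e1))
  have htz : t ≠ z := fun e1 => hxc ((monster_center hset x).2 (Or.inr e1))
  -- `z t` is conjugate to `t`
  have hztconj : IsConj t (z * t) := by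
    have hmk : ψ baseVec = QuotientGroup.mk (zq * x) := by
      rw [QuotientGroup.mk_mul, (QuotientGroup.eq_one_iff zq).2 hzqc, one_mul, hvx]
    obtain ⟨h, hh⟩ := monster_conj hX hiso (psi_not_center hiso (Or.inl hu32) hmk) hvx hmk
      (one_smul Co0 baseVec)
    refine isConj_iff.2 ⟨h, ?_⟩
    have := congrArg (fun a : Subgroup.centralizer ({z} : Set G) => (a : G)) hh
    simpa [hzq] using this
  have hTmem : ∀ a : G, a ∈ Subgroup.zpowers t → a = 1 ∨ a = t := by
    intro a ha
    obtain ⟨n, rfl⟩ := Subgroup.mem_zpowers_iff.1 ha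
    rcases Int.even_or_odd' n with ⟨k, rfl | rfl⟩
    · left; rw [zpow_mul, zpow_two, ht2, one_zpow]
    · right; rw [zpow_add, zpow_mul, zpow_two, ht2, one_zpow, one_mul, zpow_one]
  set T := (Subgroup.zpowers t).subgroupOf (Subgroup.centralizer ({t} : Set G)) with hT
  set zc : Subgroup.centralizer ({t} : Set G) := ⟨z, Subgroup.mem_centralizer_singleton_iff.2 hzt⟩ with hzc
  set zb : Subgroup.centralizer ({t} : Set G) ⧸ T := QuotientGroup.mk zc with hzb
  have hzb1 : zb ≠ 1 := fun h => by
    rcases hTmem z ((QuotientGroup.eq_one_iff zc).1 h) with h1 | h1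
    · exact hz1 h1
    · exact htz h1.symm
  set D := (Subgroup.centralizer ({t} : Set G)).subgroupOf (Subgroup.centralizer ({z} : Set G)) with hD
  have hDmem : ∀ h : Subgroup.centralizer ({z} : Set G), h ∈ D ↔ (h : G) * t = t * (h : G) := fun h => by
    rw [hD, Subgroup.mem_subgroupOf, Subgroup.mem_centralizer_singleton_iff]
  let lift : D →* Subgroup.centralizer ({t} : Set G) :=
    { toFun := fun h => ⟨((h : Subgroup.centralizer ({z} : Set G)) : G), h.2⟩
      map_one' := rfl
      map_mul' := fun _ _ => rfl }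
  have hπmem : ∀ h : D, (QuotientGroup.mk (lift h) : Subgroup.centralizer ({t} : Set G) ⧸ T) ∈
      Subgroup.centralizer ({zb} : Set (Subgroup.centralizer ({t} : Set G) ⧸ T)) := by
    intro h
    rw [Subgroup.mem_centralizer_singleton_iff, hzb, ← QuotientGroup.mk_mul, ← QuotientGroup.mk_mul]
    congr 1
    exact Subtype.ext (Subgroup.mem_centralizer_singleton_iff.1 (h : Subgroup.centralizer ({z} : Set G)).2)
  let π : D →* Subgroup.centralizer ({zb} : Set (Subgroup.centralizer ({t} : Set G) ⧸ T)) :=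
    ((QuotientGroup.mk' T).comp lift).codRestrict _ hπmem
  have hπsurj : Function.Surjective π := by
    rintro ⟨a, ha⟩
    obtain ⟨b, rfl⟩ := QuotientGroup.mk_surjective a
    rw [Subgroup.mem_centralizer_singleton_iff, hzb, ← QuotientGroup.mk_mul, ← QuotientGroup.mk_mul,
      QuotientGroup.eq] at ha
    have hb : (b : G) * t = t * (b : G) := Subgroup.mem_centralizer_singleton_iff.1 b.2
    rcases hTmem _ (Subgroup.mem_subgroupOf.1 ha) with h1 | h1 <;>
      simp only [Subgroup.coe_mul, Subgroup.coe_inv, hzc] at h1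
    · have hbz : (b : G) * z = z * (b : G) := by
        calc (b : G) * z = (b : G) * z * ((((b : G) * z))⁻¹ * (z * b)) := by rw [h1, mul_one]
          _ = z * b := by group
      exact ⟨⟨⟨b, Subgroup.mem_centralizer_singleton_iff.2 hbz⟩, b.2⟩, Subtype.ext rfl⟩
    · exfalso
      apply hnf
      have h2 : z * (b : G) = (b : G) * (z * t) := by
        calc z * (b : G) = (b : G) * z * ((((b : G) * z))⁻¹ * (z * b)) := by group
          _ = (b : G) * (z * t) := by rw [h1, mul_assoc]
      have : IsConj z (z * t) := isConj_iff.2 ⟨(b : G)⁻¹, by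
        calc (b : G)⁻¹ * z * ((b : G)⁻¹)⁻¹ = (b : G)⁻¹ * (z * b) := by group
          _ = z * t := by rw [h2]; group⟩
      exact this.trans hztconj.symm
  have hπker : ∀ h : D, π h = 1 → ((h : Subgroup.centralizer ({z} : Set G)) : G) = 1 ∨
      ((h : Subgroup.centralizer ({z} : Set G)) : G) = t := fun h hh =>
    hTmem _ ((QuotientGroup.eq_one_iff (lift h)).1 (congrArg Subtype.val hh))
  -- the map onto the stabilizer of the vector
  have hφex : ∀ h : D, ∃ g : baseStab, (QuotientGroup.mk (g : Co0) : Spor.Co1) =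
      e (QuotientGroup.mk (h : Subgroup.centralizer ({z} : Set G))) := by
    intro h
    obtain ⟨g₀, hg₀⟩ := QuotientGroup.mk_surjective (e (QuotientGroup.mk (h : Subgroup.centralizer ({z} : Set G))))
    have hcv : cls (g₀ • baseVec) = cls baseVec := by
      refine (psi_cls_iff hiso).1 ?_
      rw [hiso.2.2.2 _ g₀ hg₀ baseVec x hvx, hvx]
      congr 1
      refine Subtype.ext (Subtype.ext ?_)
      show ((h : Subgroup.centralizer ({z} : Set G)) : G) * t * ((h : Subgroup.centralizer ({z} : Set G)) : G)⁻¹ = t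
      rw [(hDmem _).1 h.2]; group
    rcases min_cls_eq (by rw [co0_norm, hu32]) hu32 hcv with h' | h'
    · exact ⟨⟨g₀, h'⟩, hg₀⟩
    · refine ⟨⟨negElt * g₀, ?_⟩, ?_⟩
      · show (negElt * g₀) • baseVec = baseVec
        rw [mul_smul, negElt_apply, h', neg_neg]
      · show (QuotientGroup.mk (negElt * g₀) : Spor.Co1) = _
        rw [QuotientGroup.mk_mul, hg₀, (QuotientGroup.eq_one_iff negElt).2
          (Subgroup.mem_center_iff.2 fun h => (negElt_central h).symm), one_mul]
  have hφuniq : ∀ g g' : baseStab, (QuotientGroup.mk (g : Co0) : Spor.Co1) = QuotientGroup.mk (g' : Co0) → g = g' := by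
    intro g g' h
    rcases center_le (QuotientGroup.eq.1 h) with e1 | e1
    · exact Subtype.ext (inv_mul_eq_one.1 e1)
    · exfalso
      have h1 : ((g : Co0)⁻¹ * g') • baseVec = baseVec := by
        rw [mul_smul, g'.2, inv_smul_eq_iff, g.2]
      rw [e1, negElt_apply] at h1
      have h2 := congrFun (congrArg Subtype.val h1) ptA
      simp [baseVec, plusVec, ptA, ptB] at h2
  choose φf hφf using hφex
  let φ : D →* baseStab :=
    { toFun := φf
      map_one' := hφuniq _ _ (by rw [hφf]; simp)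
      map_mul' := fun a b => hφuniq _ _ (by
        rw [hφf, Subgroup.coe_mul, QuotientGroup.mk_mul, map_mul, Subgroup.coe_mul, QuotientGroup.mk_mul, hφf, hφf]) }
  have hφQ : ∀ h : D, φ h = 1 ↔ (h : Subgroup.centralizer ({z} : Set G)) ∈ Q := by
    intro h
    rw [← QuotientGroup.eq_one_iff, ← MulEquiv.map_eq_one_iff e, ← hφf h]
    refine ⟨fun h1 => by rw [show φf h = 1 from h1]; rfl, fun h1 => hφuniq _ _ (h1.trans rfl)⟩
  have hφsurj : Function.Surjective φ := by
    intro g
    obtain ⟨h, hh, he⟩ := monster_conj_image hX hiso hxc hvx hvx (show (g : Co0) • baseVec = baseVec from g.2)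
    have hhd : h ∈ D := (hDmem h).2 (mul_inv_eq_iff_eq_mul.1
      (congrArg (fun a : Subgroup.centralizer ({z} : Set G) => (a : G)) hh))
    exact ⟨⟨h, hhd⟩, hφuniq _ _ ((hφf ⟨h, hhd⟩).trans he)⟩
  let θ : Subgroup.centralizer ({zb} : Set (Subgroup.centralizer ({t} : Set G) ⧸ T)) →* baseStab :=
    π.liftOfSurjective hπsurj ⟨φ, fun h hh => (hφQ h).2 (by
      rcases hπker h hh with h1 | h1
      · rw [show (h : Subgroup.centralizer ({z} : Set G)) = 1 from Subtype.ext h1]; exact one_mem _
      · rw [show (h : Subgroup.centralizer ({z} : Set G)) = (x : Subgroup.centralizer ({z} : Set G)) from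
          Subtype.ext h1]; exact x.2)⟩
  have hθπ : ∀ h, θ (π h) = φ h := fun h => MonoidHom.liftOfRightInverse_comp_apply _ _ _ _ h
  have hθsurj : Function.Surjective θ := fun g => by
    obtain ⟨h, rfl⟩ := hφsurj g; exact ⟨π h, hθπ h⟩
  -- the kernel
  set E' := Subgroup.centralizer ({x} : Set Q) with hE'
  have hEmem : ∀ q : Q, q ∈ E' ↔ q * x = x * q := fun q => by
    rw [hE', Subgroup.mem_centralizer_singleton_iff]
  have hED : ∀ q : E', ((q : Q) : Subgroup.centralizer ({z} : Set G)) ∈ D := fun q =>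
    (hDmem _).2 (congrArg (fun a : Q => ((a : Subgroup.centralizer ({z} : Set G)) : G)) ((hEmem q.1).1 q.2))
  let ι : E' →* D :=
    { toFun := fun q => ⟨((q : Q) : Subgroup.centralizer ({z} : Set G)), hED q⟩
      map_one' := rfl
      map_mul' := fun _ _ => rfl }
  let ρ : E' →* θ.ker := (π.comp ι).codRestrict _ (fun q => by
    rw [MonoidHom.mem_ker, MonoidHom.comp_apply, hθπ, hφQ]; exact (q : Q).2)
  have hρsurj : Function.Surjective ρ := by
    rintro ⟨a, ha⟩
    obtain ⟨h, rfl⟩ := hπsurj a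
    rw [MonoidHom.mem_ker, hθπ, hφQ] at ha
    refine ⟨⟨⟨_, ha⟩, (hEmem _).2 (Subtype.ext (Subtype.ext ((hDmem _).1 h.2)))⟩, Subtype.ext rfl⟩
  have hρker : ∀ q : E', ρ q = 1 ↔ (q : Q) = 1 ∨ (q : Q) = x := by
    intro q
    constructor
    · intro h
      rcases hπker (ι q) (congrArg Subtype.val h) with h1 | h1
      · exact Or.inl (Subtype.ext (Subtype.ext h1))
      · exact Or.inr (Subtype.ext (Subtype.ext h1))
    · intro h
      refine Subtype.ext (Subtype.ext ?_)
      show QuotientGroup.mk (lift (ι q)) = (1 : Subgroup.centralizer ({t} : Set G) ⧸ T)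
      rw [QuotientGroup.eq_one_iff, Subgroup.mem_subgroupOf]
      show (((q : Q) : Subgroup.centralizer ({z} : Set G)) : G) ∈ Subgroup.zpowers t
      rcases h with h | h <;> rw [h]
      · exact one_mem _
      · exact Subgroup.mem_zpowers _
  have hxE : x ∈ E' := (hEmem x).2 rfl
  have hzE : zq ∈ E' := (hEmem zq).2 (Subgroup.mem_center_iff.1 hzqc x).symm
  have hcQ : ∀ a b : Q, a * b * a⁻¹ * b⁻¹ ∈ Subgroup.center Q := by
    intro a b
    obtain ⟨v, hv⟩ := hiso.2.1 (QuotientGroup.mk a)
    obtain ⟨v', hv'⟩ := hiso.2.1 (QuotientGroup.mk b)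
    rw [← QuotientGroup.eq_one_iff, QuotientGroup.mk_mul, QuotientGroup.mk_mul, QuotientGroup.mk_mul,
      QuotientGroup.mk_inv, QuotientGroup.mk_inv, ← hv, ← hv', ← hiso.1 v v', add_comm, hiso.1]
    group
  have hQbcard : Nat.card θ.ker = 2 ^ 23 := by
    have h := ρ.ker.card_mul_index
    rw [Subgroup.index_ker, MonoidHom.range_eq_top.2 hρsurj, Subgroup.card_top] at h
    have hE : Nat.card E' = 2 ^ 24 := by
      rw [← card_comm_noncentral hX hcard hiso x hxc]
      exact Nat.card_congr (Equiv.subtypeEquivRight hEmem)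
    have hk : Nat.card ρ.ker = 2 := by
      rw [Nat.card_eq_two_iff]
      refine ⟨1, ⟨⟨x, hxE⟩, (hρker _).2 (Or.inr rfl)⟩, fun h1 => hxc ?_, ?_⟩
      · rw [show x = (1 : Q) from
          (congrArg (fun a : ρ.ker => ((a : E') : Q)) h1).symm]
        exact one_mem _
      · rw [Set.eq_univ_iff_forall]
        intro a
        rcases (hρker _).1 a.2 with h1 | h1
        · exact Or.inl (Subtype.ext (Subtype.ext h1))
        · exact Or.inr (Subtype.ext (Subtype.ext h1))
    rw [hk, hE] at h
    omega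
  haveI : Fact (Nat.Prime 2) := ⟨Nat.prime_two⟩
  have hpg : IsPGroup 2 θ.ker := IsPGroup.of_card hQbcard
  -- the centre of the kernel
  set zr : θ.ker := ρ ⟨zq, hzE⟩ with hzr
  have hzr1 : zr ≠ 1 := fun h => by
    rcases (hρker _).1 h with h1 | h1
    · exact hz1 (hzq.symm.trans (congrArg (fun a : Q => ((a : Subgroup.centralizer ({z} : Set G)) : G)) h1))
    · exact hxc ((show zq = x from h1) ▸ hzqc)
  have hρcen : ∀ q : E', (q : Q) ∈ Subgroup.center Q → ρ q = 1 ∨ ρ q = zr := by
    intro q hq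
    rcases (monster_center hset _).1 hq with h1 | h1
    · exact Or.inl ((hρker q).2 (Or.inl (Subtype.ext (Subtype.ext h1))))
    · exact Or.inr (congrArg ρ (Subtype.ext (Subtype.ext (Subtype.ext (h1.trans hzq.symm)))))
  have hcomm : ∀ a b : θ.ker, a * b * a⁻¹ * b⁻¹ = 1 ∨ a * b * a⁻¹ * b⁻¹ = zr := by
    intro a b
    obtain ⟨p, rfl⟩ := hρsurj a
    obtain ⟨q, rfl⟩ := hρsurj b
    rw [← map_inv, ← map_inv, ← map_mul, ← map_mul, ← map_mul]
    exact hρcen _ (hcQ _ _)
  have hzrc : zr ∈ Subgroup.center θ.ker := by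
    rw [Subgroup.mem_center_iff]
    intro a
    obtain ⟨p, rfl⟩ := hρsurj a
    rw [hzr, ← map_mul, ← map_mul]
    exact congrArg ρ (Subtype.ext (Subgroup.mem_center_iff.1 hzqc p))
  have hcenter : ∀ a : θ.ker, a ∈ Subgroup.center θ.ker ↔ a = 1 ∨ a = zr := by
    intro a
    refine ⟨fun ha => ?_, fun h => by rcases h with rfl | rfl; exacts [one_mem _, hzrc]⟩
    obtain ⟨p, rfl⟩ := hρsurj a
    have hdc : ∀ w : Q, w * x = x * w → w * p = p * w := by
      intro w hw
      have h1 := Subgroup.mem_center_iff.1 ha (ρ ⟨w, (hEmem w).2 hw⟩)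
      have h2 : ρ (⟨w, (hEmem w).2 hw⟩ * p * (⟨w, (hEmem w).2 hw⟩)⁻¹ * p⁻¹) = 1 := by
        rw [map_mul, map_mul, map_mul, map_inv, map_inv, h1]; group
      rcases (hρker _).1 h2 with h3 | h3
      · calc w * p = w * p * w⁻¹ * (p : Q)⁻¹ * (p * w) := by group
          _ = 1 * ((p : Q) * w) := by rw [← h3]; rfl
          _ = p * w := one_mul _
      · exact absurd (h3 ▸ hcQ w p) hxc
    rcases double_centralizer hX hiso x p hdc with h1 | h1
    · exact hρcen p h1
    · have e1 : ρ (p * (⟨x, hxE⟩)⁻¹) = ρ p := by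
        rw [map_mul, map_inv, (hρker ⟨x, hxE⟩).2 (Or.inr rfl), inv_one, mul_one]
      rw [← e1]
      exact hρcen _ h1
  have hcen2 : Nat.card (Subgroup.center θ.ker) = 2 := by
    rw [Nat.card_eq_two_iff]
    refine ⟨1, ⟨zr, hzrc⟩, fun h => hzr1 (congrArg Subtype.val h).symm, ?_⟩
    rw [Set.eq_univ_iff_forall]
    intro a
    rcases (hcenter _).1 a.2 with h1 | h1
    · exact Or.inl (Subtype.ext h1)
    · exact Or.inr (Subtype.ext h1)
  have hcle : commutator θ.ker ≤ Subgroup.center θ.ker := by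
    rw [commutator_def, Subgroup.commutator_le]
    intro a _ b _
    rcases hcomm a b with h | h <;> rw [commutatorElement_def, h]
    · exact one_mem _
    · exact hzrc
  have hcge : Subgroup.center θ.ker ≤ commutator θ.ker := by
    obtain ⟨a, b, hab⟩ : ∃ a b : θ.ker, a * b * a⁻¹ * b⁻¹ = zr := by
      by_contra hne
      push Not at hne
      have htop : Subgroup.center θ.ker = ⊤ := by
        rw [Subgroup.eq_top_iff']
        intro a
        rw [Subgroup.mem_center_iff]
        intro b
        have h1 := (hcomm b a).resolve_right (hne b a)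
        calc b * a = b * a * b⁻¹ * a⁻¹ * (a * b) := by group
          _ = a * b := by rw [h1, one_mul]
      rw [htop, Subgroup.card_top, hQbcard] at hcen2
      norm_num at hcen2
    intro c hc
    rcases (hcenter c).1 hc with rfl | rfl
    · exact one_mem _
    · rw [← hab, commutator_def]
      exact Subgroup.commutator_mem_commutator trivial trivial
  have hfr : frattini θ.ker = Subgroup.center θ.ker := by
    refine le_antisymm (Cfsg.Lib.Solv.frattini_le_of_elementary_quotient (p := 2) _ hcle fun a => ?_)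
      (hcge.trans (Cfsg.Lib.Solv.commutator_le_frattini hpg))
    obtain ⟨p, rfl⟩ := hρsurj a
    rw [pow_two, ← map_mul]
    rcases hρcen (p * p) (sq_mem_center hiso (p : Q)) with h | h <;> rw [h]
    · exact one_mem _
    · exact hzrc
  have hextra : IsExtraspecial 2 θ.ker := ⟨⟨hpg, hfr, le_antisymm hcle hcge⟩, hcen2⟩
  -- the generalized Fitting subgroup
  have hcent : Subgroup.centralizer (θ.ker : Set _) ≤ θ.ker := by
    intro a ha
    obtain ⟨h, rfl⟩ := hπsurj a
    rw [MonoidHom.mem_ker, hθπ]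
    refine Subtype.ext (trivial_of_perp (φf h).2 fun y hy hd => ?_)
    obtain ⟨q, hq⟩ := QuotientGroup.mk_surjective (ψ y)
    have hqx : q ∈ E' := (hEmem q).2 ((monster_comm_iff hset hiso hu32 hvx hq.symm).2 (by rw [hd]; rfl))
    have h1 := Subgroup.mem_centralizer_iff.1 ha _ (ρ ⟨q, hqx⟩).2
    have h2 : π (h * ι ⟨q, hqx⟩ * h⁻¹ * (ι ⟨q, hqx⟩)⁻¹) = 1 := by
      have h3 : π h * π (ι ⟨q, hqx⟩) = π (ι ⟨q, hqx⟩) * π h := h1.symm
      rw [map_mul, map_mul, map_mul, map_inv, map_inv, h3]; group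
    have himg := hiso.2.2.2 _ _ (hφf h) y q hq.symm
    have hcls : cls ((φf h : Co0) • y) = cls y ∨ cls ((φf h : Co0) • y) = cls (baseVec + y) := by
      rcases hπker _ h2 with h3 | h3
      · left
        refine (psi_cls_iff hiso).1 ?_
        rw [himg, ← hq]
        exact congrArg QuotientGroup.mk (Subtype.ext (Subtype.ext (mul_inv_eq_one.1 h3)))
      · right
        refine (psi_cls_iff hiso).1 ?_
        rw [himg, hiso.1, hvx, ← hq, ← QuotientGroup.mk_mul]
        exact congrArg QuotientGroup.mk (Subtype.ext (Subtype.ext (mul_inv_eq_iff_eq_mul.1 h3)))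
    rcases hcls with h3 | h3
    · exact min_cls_eq (by rw [co0_norm, hy]) hy h3
    · exfalso
      have hn64 : sqNorm ((baseVec + y : leechLattice) : GolayPt → ℤ) = 64 := by
        rw [norm_sum, hu32, hy, hd]; norm_num
      rcases congr_cases ((φf h : Co0) • y).2 (fun e2 => by
          have := congrArg sqNorm e2; rw [co0_norm, hy, hn64] at this; omega)
        (by rw [co0_norm, hy]; omega) (by rw [hn64]) (cls_eq_iff.1 h3) with q' | q'
      · have := congrArg sqNorm q'
        rw [co0_norm, hy, neg_norm, hn64] at this; omega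
      · rw [co0_norm, hy] at q'; omega
  have hcore : pCore 2 (Subgroup.centralizer ({zb} : Set (Subgroup.centralizer ({t} : Set G) ⧸ T))) = θ.ker := by
    refine le_antisymm ?_ (Cfsg.Lib.Solv.le_pCore inferInstance hpg)
    intro a ha
    have hNn : ((pCore 2 _).map θ).Normal :=
      (inferInstance : (pCore 2 (Subgroup.centralizer ({zb} : Set (Subgroup.centralizer ({t} : Set G) ⧸ T)))).Normal).map
        θ hθsurj
    have : Finite baseStab := Finite.of_surjective θ hθsurj
    have hN := baseStab_two_trivial _ ((Cfsg.Lib.Solv.isPGroup_pCore 2).map θ)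
    rw [Subgroup.map_eq_bot_iff] at hN
    exact hN ha
  have hodd : pPrimeCore 2 (Subgroup.centralizer ({zb} : Set (Subgroup.centralizer ({t} : Set G) ⧸ T))) = ⊥ := by
    rw [Cfsg.Lib.Solv.pPrimeCore_eq_bot_iff_forall]
    intro N hN hNc
    have hdis : Disjoint N θ.ker := by
      rw [disjoint_iff]
      refine Subgroup.inf_eq_bot_of_coprime ?_
      rw [hQbcard]
      exact Nat.Coprime.pow_right _ hNc
    rw [Subgroup.eq_bot_iff_forall]
    intro a ha
    have ha' : a ∈ θ.ker := hcent (Subgroup.mem_centralizer_iff.2 fun b hb =>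
      (Subgroup.commute_of_normal_of_disjoint N θ.ker hN inferInstance hdis a b ha hb).symm)
    exact Subgroup.disjoint_def.1 hdis ha ha'
  have hF : generalizedFittingSubgroup (Subgroup.centralizer ({zb} : Set (Subgroup.centralizer ({t} : Set G) ⧸ T))) =
      θ.ker := by
    rw [Cfsg.Lib.Comp.fstar_eq_pCore_of_centralizer hodd (by rw [hcore]; exact hcent), hcore]
  -- a conjugate of `zb` in the kernel
  obtain ⟨xs, hxs⟩ := QuotientGroup.mk_surjective (ψ (eight none))
  obtain ⟨hsconj, hsne⟩ := (monster_fused_iff hset hiso xs).2 ⟨eight none, eight_norm none, hxs.symm⟩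
  obtain ⟨c, hc⟩ := isConj_iff.1 hsconj
  obtain ⟨-, hcen, hframe⟩ := monster_inter_frame hset hiso xs hxs.symm c hc
  obtain ⟨r, hr, hrb⟩ := hframe baseVec (fun i => by
    simp only [baseVec, plusVec]; split <;> split <;> norm_num)
  have hxR : (x : Subgroup.centralizer ({z} : Set G)) ∈ conjPart Q c := by
    have hk : r⁻¹ * x ∈ Subgroup.center Q := QuotientGroup.eq.1 (hrb.symm.trans hvx)
    have := mul_mem hr (Subgroup.mem_subgroupOf.1 (hcen _ hk))
    simpa using this
  obtain ⟨t', ht'⟩ := mem_conjPart.1 hxR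
  have hx' : t' * t' = 1 := Subtype.ext (Subtype.ext (by
    show ((t' : Subgroup.centralizer ({z} : Set G)) : G) * ((t' : Subgroup.centralizer ({z} : Set G)) : G) = 1
    rw [ht']
    calc c⁻¹ * t * c * (c⁻¹ * t * c) = c⁻¹ * (t * t) * c := by group
      _ = 1 := by rw [ht2]; group))
  have hconjt : IsConj ((t' : Subgroup.centralizer ({z} : Set G)) : G) t :=
    isConj_iff.2 ⟨c, by rw [ht', ht]; group⟩
  have ht'c : t' ∉ Subgroup.center Q := fun h => by
    rcases (monster_center hset t').1 h with h1 | h1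
    · rw [h1, isConj_one_right] at hconjt
      exact ht1 hconjt
    · rw [h1] at hconjt; exact hnf hconjt
  obtain ⟨v', hv', hvt'⟩ := monster_involution hX hcard hiso t' hx' ht'c
  have hv32 : sqNorm (v' : GolayPt → ℤ) = 32 := by
    rcases hv' with h | h
    · exact h
    · exact absurd ((((monster_fused_iff hset hiso t').2 ⟨v', h, hvt'⟩).1).trans hconjt) hnf
  obtain ⟨g, hg⟩ := trans32 hv32 hu32
  obtain ⟨h, hh⟩ := monster_conj hX hiso hxc hvt' hvx hg
  have hh' : (h : G) * ((t' : Subgroup.centralizer ({z} : Set G)) : G) * (h : G)⁻¹ = t :=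
    congrArg (fun a : Subgroup.centralizer ({z} : Set G) => (a : G)) hh
  set c' : G := c * (h : G)⁻¹ with hc'
  have hc't : c' * t = t * c' := by
    have : c' * t * c'⁻¹ = t := by
      rw [hc']
      calc c * (h : G)⁻¹ * t * (c * (h : G)⁻¹)⁻¹ = c * ((h : G)⁻¹ * t * (h : G)) * c⁻¹ := by group
        _ = c * ((t' : Subgroup.centralizer ({z} : Set G)) : G) * c⁻¹ := by rw [← hh']; group
        _ = t := by rw [ht', ht]; group
    exact mul_inv_eq_iff_eq_mul.1 this
  have hc'z : c' * z * c'⁻¹ = ((xs : Subgroup.centralizer ({z} : Set G)) : G) := by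
    have h1 : (h : G) * z = z * (h : G) := Subgroup.mem_centralizer_singleton_iff.1 h.2
    rw [hc', ← hc]
    calc c * (h : G)⁻¹ * z * (c * (h : G)⁻¹)⁻¹ = c * ((h : G)⁻¹ * (z * (h : G))) * c⁻¹ := by group
      _ = c * z * c⁻¹ := by rw [← h1]; group
  have hxsE : xs ∈ E' := (hEmem xs).2 ((monster_comm_iff hset hiso hu32 hvx hxs.symm).2 (by
    rw [dot_base, eight_apply, eight_apply]; simp [ptA, ptB]))
  set gb : Subgroup.centralizer ({t} : Set G) ⧸ T :=
    QuotientGroup.mk ⟨c', Subgroup.mem_centralizer_singleton_iff.2 hc't⟩ with hgb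
  have hgz : gb * zb * gb⁻¹ =
      (((ρ ⟨xs, hxsE⟩ : θ.ker) : Subgroup.centralizer ({zb} : Set (Subgroup.centralizer ({t} : Set G) ⧸ T))) :
        Subgroup.centralizer ({t} : Set G) ⧸ T) := by
    show (QuotientGroup.mk _ : Subgroup.centralizer ({t} : Set G) ⧸ T) * QuotientGroup.mk zc * (QuotientGroup.mk _)⁻¹ = _
    rw [← QuotientGroup.mk_inv, ← QuotientGroup.mk_mul, ← QuotientGroup.mk_mul]
    exact congrArg QuotientGroup.mk (Subtype.ext hc'z)
  have hnwc : ∃ g : Subgroup.centralizer ({t} : Set G) ⧸ T,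
      (∃ hq : g * zb * g⁻¹ ∈ Subgroup.centralizer ({zb} : Set (Subgroup.centralizer ({t} : Set G) ⧸ T)),
        (⟨g * zb * g⁻¹, hq⟩ : Subgroup.centralizer ({zb} : Set (Subgroup.centralizer ({t} : Set G) ⧸ T))) ∈ θ.ker) ∧
      g * zb * g⁻¹ ≠ zb := by
    refine ⟨gb, ⟨by rw [hgz]; exact (ρ ⟨xs, hxsE⟩ : θ.ker).1.2, ?_⟩, ?_⟩
    · simp only [hgz]; exact (ρ ⟨xs, hxsE⟩ : θ.ker).2
    · rw [hgz]
      intro h1
      have h2 : (QuotientGroup.mk (lift (ι ⟨xs, hxsE⟩)) : Subgroup.centralizer ({t} : Set G) ⧸ T) =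
        QuotientGroup.mk zc := h1
      rw [QuotientGroup.eq] at h2
      rcases hTmem _ (Subgroup.mem_subgroupOf.1 h2) with h3 | h3
      · exact hsne (inv_mul_eq_one.1 h3)
      · apply hnf
        have h4 : ((xs : Subgroup.centralizer ({z} : Set G)) : G) = z * t := by
          have h5 : ((xs : Subgroup.centralizer ({z} : Set G)) : G)⁻¹ * z = t := h3
          calc ((xs : Subgroup.centralizer ({z} : Set G)) : G)
              = z * (((xs : Subgroup.centralizer ({z} : Set G)) : G)⁻¹ * z)⁻¹ := by group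
            _ = z * t := by rw [h5, inv_eq_of_mul_eq_one_right ht2]
        exact (h4 ▸ hsconj).trans hztconj.symm
  have hzb2 : orderOf zb = 2 := orderOf_eq_prime (by
    rw [pow_two, hzb, ← QuotientGroup.mk_mul, show zc * zc = 1 from Subtype.ext hz2]; rfl) hzb1
  -- the module isomorphism
  have hperp : ∀ y : leechPerpU, (dotInt (baseVec : GolayPt → ℤ) (y : leechLattice)) % 16 = 0 := by
    intro y
    rw [baseVec_eq_leechU, dotInt_comm']
    exact Int.emod_eq_zero_of_dvd y.2
  have hψex : ∀ y : leechPerpU, ∃ q : E', ψ (y : leechLattice) = QuotientGroup.mk (q : Q) := by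
    intro y
    obtain ⟨q, hq⟩ := QuotientGroup.mk_surjective (ψ (y : leechLattice))
    exact ⟨⟨q, (hEmem q).2 ((monster_comm_iff hset hiso hu32 hvx hq.symm).2 (hperp y))⟩, hq.symm⟩
  choose qf hqf using hψex
  let ψ' : leechPerpU → θ.ker ⧸ Subgroup.center θ.ker := fun y => QuotientGroup.mk (ρ (qf y))
  have hψ' : ∀ (y : leechPerpU) (q : E'), ψ (y : leechLattice) = QuotientGroup.mk (q : Q) →
      ψ' y = QuotientGroup.mk (ρ q) := by
    intro y q hq
    refine QuotientGroup.eq.2 ?_
    rw [← map_inv, ← map_mul]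
    rcases hρcen _ (show (((qf y)⁻¹ * q : E') : Q) ∈ Subgroup.center Q from
      QuotientGroup.eq.1 ((hqf y).symm.trans hq)) with h | h <;> rw [h]
    · exact one_mem _
    · exact hzrc
  refine ⟨zb, θ.ker, inferInstance, ⟨hzb2, hF, hextra, hQbcard, hnwc⟩,
    (QuotientGroup.quotientKerEquivOfSurjective θ hθsurj).trans toCo2, ψ', ?_, ?_, ?_, ?_⟩
  · intro a b
    rw [hψ' (a + b) (qf a * qf b)]
    · rw [map_mul, QuotientGroup.mk_mul]
    · rw [AddSubgroup.coe_add, hiso.1, hqf a, hqf b, ← QuotientGroup.mk_mul]; rfl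
  · intro a
    obtain ⟨a, rfl⟩ := QuotientGroup.mk_surjective a
    obtain ⟨q, rfl⟩ := hρsurj a
    obtain ⟨w, hw⟩ := hiso.2.1 (QuotientGroup.mk (q : Q))
    have hwp : (w : leechLattice) ∈ leechPerpU := by
      have h1 := (monster_comm_iff hset hiso hu32 hvx hw).1 ((hEmem _).1 q.2)
      rw [baseVec_eq_leechU, dotInt_comm'] at h1
      exact Int.dvd_of_emod_eq_zero h1
    exact ⟨⟨w, hwp⟩, hψ' _ q hw⟩
  · intro a
    have key : ψ' a = 1 ↔ cls (a : leechLattice) = cls 0 ∨ cls (a : leechLattice) = cls baseVec := by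
      show (QuotientGroup.mk (ρ (qf a)) : θ.ker ⧸ Subgroup.center θ.ker) = 1 ↔ _
      rw [QuotientGroup.eq_one_iff, hcenter]
      constructor
      · intro h
        have hQ' : ((qf a : Q)) ∈ Subgroup.center Q ∨ (qf a : Q) * x⁻¹ ∈ Subgroup.center Q := by
          rcases h with h | h
          · rcases (hρker _).1 h with h1 | h1 <;> rw [h1]
            · exact Or.inl (one_mem _)
            · exact Or.inr (by rw [mul_inv_cancel]; exact one_mem _)
          · have h' : ρ (qf a * (⟨zq, hzE⟩)⁻¹) = 1 := by rw [map_mul, map_inv, h, hzr, mul_inv_cancel]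
            rcases (hρker _).1 h' with h1 | h1
            · left; rw [show (qf a : Q) = zq from mul_inv_eq_one.1 h1]; exact hzqc
            · right
              rw [show (qf a : Q) = x * zq from mul_inv_eq_iff_eq_mul.1 h1]
              have : x * zq * x⁻¹ = zq := by
                rw [Subgroup.mem_center_iff.1 hzqc x]; group
              rw [this]; exact hzqc
        rcases hQ' with h1 | h1
        · left
          rw [← psi_cls_iff hiso, hqf a, psi_zero hiso, QuotientGroup.eq_one_iff]; exact h1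
        · right
          rw [← psi_cls_iff hiso, hqf a, hvx]
          rwa [← QuotientGroup.eq_one_iff, QuotientGroup.mk_mul, QuotientGroup.mk_inv, mul_inv_eq_one] at h1
      · rintro (h | h) <;> rw [← psi_cls_iff hiso, hqf a] at h
        · rw [psi_zero hiso, QuotientGroup.eq_one_iff] at h
          exact hρcen _ h
        · rw [hvx] at h
          have hm : (((qf a) * (⟨x, hxE⟩)⁻¹ : E') : Q) ∈ Subgroup.center Q := by
            rw [← QuotientGroup.eq_one_iff, Subgroup.coe_mul, Subgroup.coe_inv, QuotientGroup.mk_mul,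
              QuotientGroup.mk_inv, h, mul_inv_cancel]
          have := hρcen _ hm
          rwa [map_mul, map_inv, (hρker ⟨x, hxE⟩).2 (Or.inr rfl), inv_one, mul_one] at this
    rw [key]
    refine or_congr ⟨fun h => ?_, fun ⟨w, hw⟩ => ?_⟩ ⟨fun h => ?_, fun ⟨w, hw⟩ => ?_⟩
    · obtain ⟨u, hu, he⟩ := cls_eq_iff.1 h
      refine ⟨⟨u, hu⟩, Subtype.ext ?_⟩
      rw [AddSubgroup.coe_add, ← two_nsmul]
      simpa using he
    · exact cls_eq_iff.2 ⟨w, w.2, by rw [hw, AddSubgroup.coe_add, AddSubgroup.coe_zero, sub_zero, two_nsmul]⟩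
    · obtain ⟨u, hu, he⟩ := cls_eq_iff.1 h
      refine ⟨⟨u, hu⟩, Subtype.ext ?_⟩
      rw [← baseVec_eq_leechU, AddSubgroup.coe_add, AddSubgroup.coe_add, ← two_nsmul]
      show ((a : leechLattice) : GolayPt → ℤ) = (baseVec : GolayPt → ℤ) + 2 • u
      rw [← he]; abel
    · exact cls_eq_iff.2 ⟨w, w.2, by
        rw [hw, baseVec_eq_leechU, AddSubgroup.coe_add, AddSubgroup.coe_add, two_nsmul]; abel⟩
  · intro hh gg hgg a b hab qq hqq
    obtain ⟨d, rfl⟩ := hπsurj hh
    obtain ⟨q, rfl⟩ := hρsurj qq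
    have hg' : toCo2 (φ d) = gg := by rw [← hgg, ← hθπ]; rfl
    have hEq : ((d : Subgroup.centralizer ({z} : Set G)) : G) * t = t * ((d : Subgroup.centralizer ({z} : Set G)) : G) :=
      (hDmem _).1 d.2
    set q0 := qf a
    have hconj : (d : Subgroup.centralizer ({z} : Set G)) * ((q0 : Q) : Subgroup.centralizer ({z} : Set G)) *
        (d : Subgroup.centralizer ({z} : Set G))⁻¹ ∈ Q :=
      (inferInstance : Q.Normal).conj_mem _ (q0 : Q).2 _
    have hconjE : (⟨_, hconj⟩ : Q) ∈ E' := (hEmem _).2 (Subtype.ext (Subtype.ext (by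
      show ((d : Subgroup.centralizer ({z} : Set G)) : G) * (((q0 : Q) : Subgroup.centralizer ({z} : Set G)) : G) *
          ((d : Subgroup.centralizer ({z} : Set G)) : G)⁻¹ * t =
        t * (((d : Subgroup.centralizer ({z} : Set G)) : G) * (((q0 : Q) : Subgroup.centralizer ({z} : Set G)) : G) *
          ((d : Subgroup.centralizer ({z} : Set G)) : G)⁻¹)
      exact Subgroup.mem_centralizer_singleton_iff.1
        (mul_mem (mul_mem d.2 (hED q0)) (inv_mem d.2)))))
    have hb : ψ (b : leechLattice) = QuotientGroup.mk (⟨_, hconj⟩ : Q) := by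
      have e2 : (φ d : Co0) • (a : leechLattice) = (b : leechLattice) := by rw [← hab, ← hg']; rfl
      rw [← e2]
      exact hiso.2.2.2 _ _ (hφf d) _ _ (hqf a)
    rw [hψ' b ⟨_, hconjE⟩ hb]
    have hc0 : (QuotientGroup.mk (ρ q0) : θ.ker ⧸ Subgroup.center θ.ker) = QuotientGroup.mk (ρ q) := hqq
    refine QuotientGroup.eq.2 ?_
    set A : θ.ker := ρ ⟨_, hconjE⟩ with hA
    have hAeq : ((A : θ.ker) : Subgroup.centralizer ({zb} : Set (Subgroup.centralizer ({t} : Set G) ⧸ T))) =
        π d * ((ρ q0 : θ.ker) : Subgroup.centralizer ({zb} : Set (Subgroup.centralizer ({t} : Set G) ⧸ T))) * (π d)⁻¹ := by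
      rw [hA]
      show π (ι ⟨_, hconjE⟩) = π d * π (ι q0) * (π d)⁻¹
      rw [← map_inv, ← map_mul, ← map_mul]
      exact congrArg π (Subtype.ext rfl)
    rcases (hcenter _).1 (QuotientGroup.eq.1 hc0) with h1 | h1
    · refine (hcenter _).2 (Or.inl ?_)
      refine Subtype.ext ?_
      simp only [Subgroup.coe_mul, Subgroup.coe_inv, hAeq]
      rw [inv_mul_eq_one.1 h1]
      simp only [Subgroup.coe_one]
      group
    · refine (hcenter _).2 (Or.inr ?_)
      refine Subtype.ext ?_
      simp only [Subgroup.coe_mul, Subgroup.coe_inv, hAeq]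
      have h2 := congrArg Subtype.val h1
      simp only [Subgroup.coe_mul, Subgroup.coe_inv] at h2
      have hcz : π d * (zr : Subgroup.centralizer ({zb} : Set (Subgroup.centralizer ({t} : Set G) ⧸ T))) * (π d)⁻¹ =
          (zr : Subgroup.centralizer ({zb} : Set (Subgroup.centralizer ({t} : Set G) ⧸ T))) := by
        show π d * π (ι ⟨zq, hzE⟩) * (π d)⁻¹ = π (ι ⟨zq, hzE⟩)
        rw [← map_inv, ← map_mul, ← map_mul]
        refine congrArg π (Subtype.ext (Subtype.ext ?_))
        show ((d : Subgroup.centralizer ({z} : Set G)) : G) * ((zq : Subgroup.centralizer ({z} : Set G)) : G) *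
          ((d : Subgroup.centralizer ({z} : Set G)) : G)⁻¹ = ((zq : Subgroup.centralizer ({z} : Set G)) : G)
        rw [hzq, Subgroup.mem_centralizer_singleton_iff.1 (d : Subgroup.centralizer ({z} : Set G)).2]
        group
      rw [← hcz, ← h2]
      group

theorem monster_baby (hM : IsOfMonsterType z Q) (t : G)
    (htQ : ∃ htc : t ∈ Subgroup.centralizer ({z} : Set G), (⟨t, htc⟩ : Subgroup.centralizer ({z} : Set G)) ∈ Q)
    (ht2 : orderOf t = 2) (ht : ¬ IsConj z t)
    [hn : ((Subgroup.zpowers t).subgroupOf (Subgroup.centralizer ({t} : Set G))).Normal] :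
    IsOfBabyMonsterType (↥(Subgroup.centralizer ({t} : Set G)) ⧸
      (Subgroup.zpowers t).subgroupOf (Subgroup.centralizer ({t} : Set G))) := by
  obtain ⟨hset, e, ψ, hiso⟩ := hM
  obtain ⟨htc, htQ⟩ := htQ
  have hnc : (⟨_, htQ⟩ : Q) ∉ Subgroup.center Q := fun h => by
    rcases (monster_center hset _).1 h with h1 | h1
    · rw [show t = 1 from h1, orderOf_one] at ht2; omega
    · exact ht (by rw [show t = z from h1])
  obtain ⟨v, hv, hvx⟩ := monster_involution hset.2.2.1 hset.2.2.2.1 hiso ⟨_, htQ⟩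
    (Subtype.ext (Subtype.ext (by show t * t = 1; rw [← pow_two, ← ht2]; exact pow_orderOf_eq_one t))) hnc
  have hv32 : sqNorm (v : GolayPt → ℤ) = 32 := hv.resolve_right fun h =>
    ht ((monster_fused_iff hset hiso ⟨_, htQ⟩).2 ⟨v, h, hvx⟩).1
  obtain ⟨k, hk⟩ := trans32 baseVec_norm hv32
  exact monster_baby_frame hset (iso_twist hiso k) ⟨⟨t, htc⟩, htQ⟩ (by show ψ (k • baseVec) = _; rw [hk, hvx])
    (hn := hn)

end Cfsg.Lib.Leech
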